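import Cfsg.Agent.M12S.H

/-! Words in codes and letters, and their rewriting. -/

set_option autoImplicit false
set_option linter.unusedSectionVars false

namespace CF.M12S

open Subgroup CF.Loc CF.HSo CF.Comp

abbrev Wd := List ℕ
abbrev Tab := List T3
abbrev Fc := Wd × Wd
abbrev Ins := ℕ × ℕ × Wd × ℕ × ℕ

noncomputable def od (x : ℕ) : Bool := Nat.beq (Nat.land x (nat_lit 1)) (nat_lit 1)
noncomputable def hf (x : ℕ) : ℕ := Nat.shiftRight x (nat_lit 1)
noncomputable def cd (a : ℕ) : ℕ := Nat.succ (Nat.mul a (nat_lit 2))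
noncomputable def okW (N n : ℕ) (w : Wd) : Bool := lall (fun x => blt (hf x) (Bool.rec n N (od x))) w

noncomputable def sift (m : Op2) (kn : Tab) : ℕ → (ℕ → Bool) → Bool :=
  List.rec (motive := fun _ => ℕ → (ℕ → Bool) → Bool) (fun e k => an (Nat.beq e (nat_lit 0)) (k (nat_lit 0)))
    (fun r _ ih e k => Bool.rec (ih e k) (force (m e r.2.1) fun e' => ih e' fun x => force (m x r.2.2) k)
      (blt (Nat.xor e r.1) e)) kn

noncomputable def run (m : Op2) (Ts : List Tab) (w : Wd) (a : ℕ) : (ℕ → Bool) → Bool :=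
  List.rec (motive := fun _ => (ℕ → Bool) → Bool) (fun k => k a) (fun x _ ih k => ih fun b => force (hf x) fun g =>
    Bool.rec (sift m (nth [] Ts g) b k) (force (p15 m g) fun i => an (Nat.beq (m g i) (nat_lit 0))
      (force (m g b) fun y => force (m y i) k)) (od x)) w

noncomputable def prc (m : Op2) (w : Wd) : (ℕ → Bool) → Bool :=
  List.rec (motive := fun _ => (ℕ → Bool) → Bool) (fun k => k (nat_lit 0)) (fun x _ ih k => an (od x) (ih fun b =>
    force (hf x) fun g => force (m g b) k)) w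

noncomputable def psh (m : Op2) (N : ℕ) (Ts : List Tab) (a : ℕ) (u v : Wd) : Bool :=
  List.rec (motive := fun _ => Bool) false (fun x s _ => an (blt a N) (an (leq u (lapp s [cd a]))
    (run m Ts s a fun b => Nat.beq x (cd b)))) v

noncomputable def isF (fs : List Fc) (j : ℕ) (u v : Wd) : Bool := an (leq (nth ([], []) fs j).1 u) (leq (nth ([], []) fs j).2 v)

noncomputable def jst (m : Op2) (N : ℕ) (Ts : List Tab) (fs : List Fc) (u v : Wd) (k p : ℕ) : Bool :=
  nth false [prc m u fun a => prc m v (Nat.beq a), psh m N Ts p u v, psh m N Ts p v u, isF fs p u v, isF fs p v u] k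

noncomputable def eqv (m : Op2) (N : ℕ) (Ts : List Tab) (fs : List Fc) (I : List Ins) : Wd → Wd → Bool :=
  List.rec (motive := fun _ => Wd → Wd → Bool) (fun u v => leq u v) (fun i _ ih u v =>
    fL (u.drop i.1) fun r => fL (r.take i.2.1) fun s => an (okW N (llen Ts) i.2.2.1)
      (an (jst m N Ts fs s i.2.2.1 i.2.2.2.1 i.2.2.2.2)
        (fL (lapp (u.take i.1) (lapp i.2.2.1 (r.drop i.2.1))) fun w => ih w v))) I

variable {G : Type*} [Group G]

noncomputable def ltr (ψ e : ℕ → G) (x : ℕ) : G := Bool.rec (e (hf x)) (ψ (hf x)) (od x)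
noncomputable def vl (ψ e : ℕ → G) (w : Wd) : G := (w.map (ltr ψ e)).prod

theorem od_cd (a : ℕ) : od (cd a) = true := beq_iff.2 (by
  show (a * 2 + 1) &&& 1 = 1
  rw [Nat.and_one_is_mod]; omega)
theorem hf_cd (a : ℕ) : hf (cd a) = a := by
  show (a * 2 + 1) >>> 1 = a
  rw [Nat.shiftRight_one]; omega
theorem od_two (a : ℕ) : od (2 * a) = false := beq_false_iff.2 (by
  show (2 * a) &&& 1 ≠ 1
  rw [Nat.and_one_is_mod]; omega)
theorem hf_two (a : ℕ) : hf (2 * a) = a := by
  show (2 * a) >>> 1 = a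
  rw [Nat.shiftRight_one]; omega

variable {ψ ψ' e e' : ℕ → G} {n n' l l' x : ℕ} {u v w : Wd}

theorem ltr_cd (a : ℕ) : ltr ψ e (cd a) = ψ a := by rw [ltr, od_cd, hf_cd]
theorem ltr_two (a : ℕ) : ltr ψ e (2 * a) = e a := by rw [ltr, od_two, hf_two]
theorem vl_nil : vl ψ e [] = 1 := rfl
theorem vl_cons : vl ψ e (x :: w) = ltr ψ e x * vl ψ e w := List.prod_cons
theorem vl_app : vl ψ e (u ++ v) = vl ψ e u * vl ψ e v := by rw [vl, List.map_append, List.prod_append]; rfl
theorem okW_cons : okW n l (x :: w) = true ↔ hf x < Bool.rec l n (od x) ∧ okW n l w = true := by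
  simp only [okW, lall_iff, List.forall_mem_cons, blt_iff]
theorem okW_app : okW n l (u ++ v) = true ↔ okW n l u = true ∧ okW n l v = true := by
  simp only [okW, lall_iff, List.forall_mem_append]
theorem okW_cd {a : ℕ} : okW n l (cd a :: w) = true ↔ a < n ∧ okW n l w = true := by rw [okW_cons, od_cd, hf_cd]

theorem okW_mono (h : ∀ a < n, ψ' a = ψ a) (k : ∀ a < l, e' a = e a) (p : n ≤ n') (q : l ≤ l')
    (o : okW n l w = true) : okW n' l' w = true ∧ vl ψ' e' w = vl ψ e w := by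
  induction w with
  | nil => exact ⟨rfl, rfl⟩
  | cons x w ih =>
    obtain ⟨o1, o2⟩ := okW_cons.1 o
    rw [okW_cons, vl_cons, vl_cons, (ih o2).2, ltr, ltr]
    cases c : od x <;> rw [c] at o1
    exacts [⟨⟨o1.trans_le q, (ih o2).1⟩, by rw [k _ o1]⟩, ⟨⟨o1.trans_le p, (ih o2).1⟩, by rw [h _ o1]⟩]

/-- a table of the action of `g` -/
def Kn (ψ : ℕ → G) (n : ℕ) (g : G) (T : Tab) : Prop :=
  ∀ r ∈ T, r.1 < n ∧ r.2.1 < n ∧ r.2.2 < n ∧ ψ r.1 * ψ r.2.1 = 1 ∧ g * ψ r.1 = ψ r.2.2 * g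

/-- a tower with letters, tables and facts -/
structure Wc (W : List Lv) (m : Op2) (xs : List G) (e : ℕ → G) (Ts : List Tab) (fs : List Fc) : Prop
    extends Tc W m xs where
  kn : ∀ j, Kn (ev W xs) (sz W) (e j) (nth [] Ts j)
  fa : ∀ f ∈ fs, okW (sz W) (llen Ts) f.1 = true ∧ okW (sz W) (llen Ts) f.2 = true ∧
    vl (ev W xs) e f.1 = vl (ev W xs) e f.2

variable {W : List Lv} {m : Op2} {xs : List G} {Ts : List Tab} {fs : List Fc}

local notation "φ" => ev W xs
local notation "N" => sz W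

theorem Tc.sift (C : Tc W m xs) {g : G} {T : Tab} (h : Kn φ N g T) {a : ℕ} {k : ℕ → Bool} (ha : a < N)
    (q : sift m T a k = true) : ∃ b < N, g * φ a = φ b * g ∧ k b = true := by
  induction T generalizing a k with
  | nil =>
    obtain ⟨q1, q2⟩ := an_iff.1 q
    obtain rfl := beq_iff.1 q1
    exact ⟨0, C.pos, by simp [C.z], q2⟩
  | cons r T ih =>
    have h' : Kn φ N g T := fun s hs => h s (List.mem_cons_of_mem _ hs)
    obtain ⟨r1, r2, r3, r4, r5⟩ := h r List.mem_cons_self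
    change Bool.rec (motive := fun _ => Bool) (M12S.sift m T a k) (force (m a r.2.1) fun e' => M12S.sift m T e' fun x =>
      force (m x r.2.2) k) (blt (Nat.xor a r.1) a) = true at q
    cases c1 : blt (Nat.xor a r.1) a <;> rw [c1] at q
    · exact ih h' ha q
    · rw [force_eq] at q
      obtain ⟨b, b1, b2, b3⟩ := ih h' (C.lt ha r2) q
      refine ⟨_, C.lt b1 r3, ?_, by rwa [force_eq] at b3⟩
      rw [C.mu b1 r3, mul_assoc, ← r5, ← mul_assoc, ← b2, C.mu ha r2, ← eq_inv_of_mul_eq_one_right r4 |>.symm]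
      group

theorem Tc.p15 (C : Tc W m xs) {a : ℕ} (h : a < N) : p15 m a < N := by
  simp only [M12S.p15, force_eq]
  have b := C.lt h h
  have c := C.lt b b
  exact C.lt (C.lt (C.lt (C.lt c c) c) b) h

theorem Tc.prc (C : Tc W m xs) {k : ℕ → Bool} (o : okW N l w = true) (q : prc m w k = true) :
    ∃ b < N, vl φ e w = φ b ∧ k b = true := by
  induction w generalizing k with
  | nil => exact ⟨0, C.pos, C.z.symm, q⟩
  | cons x w ih =>
    obtain ⟨o1, o2⟩ := okW_cons.1 o
    obtain ⟨q1, q2⟩ := an_iff.1 q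
    obtain ⟨b, b1, b2, b3⟩ := ih o2 q2
    rw [q1] at o1
    exact ⟨_, C.lt o1 b1, by rw [vl_cons, b2, ltr, q1, C.mu o1 b1], by rwa [force_eq, force_eq] at b3⟩

namespace Wc

variable (C : Wc W m xs e Ts fs)
include C

theorem run {a : ℕ} {k : ℕ → Bool} (o : okW N l w = true) (ha : a < N) (q : run m Ts w a k = true) :
    ∃ b < N, vl φ e w * φ a = φ b * vl φ e w ∧ k b = true := by
  induction w generalizing k with
  | nil => exact ⟨a, ha, by simp [vl_nil], q⟩
  | cons x w ih =>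
    obtain ⟨o1, o2⟩ := okW_cons.1 o
    obtain ⟨b, b1, b2, b3⟩ := ih o2 q
    rw [force_eq] at b3
    suffices ∃ c < N, ltr φ e x * φ b = φ c * ltr φ e x ∧ k c = true from this.imp fun c r =>
      ⟨r.1, by rw [vl_cons, mul_assoc, b2, ← mul_assoc, r.2.1, mul_assoc], r.2.2⟩
    rw [ltr]
    cases c : od x <;> rw [c] at o1 b3
    · exact C.sift (C.kn _) b1 b3
    simp only [force_eq, an_iff] at b3
    have i := C.p15 o1
    exact ⟨_, C.lt (C.lt o1 b1) i, by
      rw [C.mu (C.lt o1 b1) i, C.mu o1 b1, eq_inv_of_mul_eq_one_right ((C.m0 o1 i).1 b3.1)]; simp, b3.2⟩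

theorem psh {a : ℕ} (o : okW N l v = true) (q : psh m N Ts a u v = true) : vl φ e u = vl φ e v := by
  obtain _ | ⟨x, s⟩ := v
  · cases q
  obtain ⟨q1, q⟩ := an_iff.1 q
  obtain ⟨q2, q3⟩ := an_iff.1 q
  obtain ⟨b, -, b2, b3⟩ := C.run (okW_cons.1 o).2 (blt_iff.1 q1) q3
  rw [leq_iff.1 q2, lapp_eq, vl_app, vl_cons, vl_cons, beq_iff.1 b3, ltr_cd, ltr_cd, vl_nil, mul_one, b2]

theorem isF {j : ℕ} (q : isF fs j u v = true) : vl φ e u = vl φ e v := by
  obtain ⟨q1, q2⟩ := an_iff.1 q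
  rw [← leq_iff.1 q1, ← leq_iff.1 q2]
  exact (nth_mem_or _ fs j).elim (fun r => (C.fa _ r).2.2) fun r => by rw [r]

theorem jst {k p : ℕ} (o : okW N l u = true) (o' : okW N l v = true) (q : jst m N Ts fs u v k p = true) :
    vl φ e u = vl φ e v := by
  obtain _ | _ | _ | _ | _ | k := k
  · obtain ⟨a, -, a2, a3⟩ := C.prc (e := e) o q
    obtain ⟨b, -, b2, b3⟩ := C.prc (e := e) o' a3
    rw [a2, b2, beq_iff.1 b3]
  exacts [C.psh o' q, (C.psh o q).symm, C.isF q, (C.isF q).symm, by cases q]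

theorem eqv {I : List Ins} (o : okW N (llen Ts) u = true) (q : eqv m N Ts fs I u v = true) :
    okW N (llen Ts) v = true ∧ vl φ e u = vl φ e v := by
  induction I generalizing u with
  | nil => exact leq_iff.1 q ▸ ⟨o, rfl⟩
  | cons i I ih =>
    change fL (u.drop i.1) (fun r => fL (r.take i.2.1) fun s => an (okW N (llen Ts) i.2.2.1)
      (an (M12S.jst m N Ts fs s i.2.2.1 i.2.2.2.1 i.2.2.2.2) (fL (lapp (u.take i.1) (lapp i.2.2.1 (r.drop i.2.1)))
        fun w => M12S.eqv m N Ts fs I w v))) = true at q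
    simp only [fL_eq, an_iff, lapp_eq] at q
    have e1 : u = u.take i.1 ++ ((u.drop i.1).take i.2.1 ++ (u.drop i.1).drop i.2.1) := by
      rw [List.take_append_drop, List.take_append_drop]
    rw [e1, okW_app, okW_app] at o
    have := ih (okW_app.2 ⟨o.1, okW_app.2 ⟨q.1, o.2.2⟩⟩) q.2.2
    refine ⟨this.1, Eq.trans ?_ this.2⟩
    rw [vl_app, vl_app, ← C.jst o.2.1 q.1 q.2.1, ← vl_app, ← vl_app, ← e1]

end Wc

end CF.M12S
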