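import Cfsg.Agent.M12S.D

/-! The nodes of the proof tree for the centralizer `2 × Aut M₁₂`. -/

set_option autoImplicit false
set_option linter.unusedSectionVars false

namespace CF.M12S

open Subgroup CF.Loc CF.HSo CF.Comp

universe u

variable {G : Type u} [Group G]

/-- the final check passes -/
def FinOK (m : Op2) (W : List Lv) (t n0 : ℕ) : Prop :=
  ∃ nA nX kY nI ks cs ab gl lv xc, finOK m W t n0 nA nX kY nI ks cs ab gl lv xc = true

/-- the centralizers of `⟨t, z, v⟩` and `⟨t, z⟩` -/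
structure En (ψ : ℕ → G) (ρ : G) : Prop where
  cv : ∀ g, (∀ a ∈ [64, 1, 2], g * ψ a = ψ a * g) → ∃ p < 128, g = ψ p
  ck : ∀ g, (∀ a ∈ [64, 1], g * ψ a = ψ a * g) → ∃ p < 256, ∃ j ∈ [0, 1, 2], g = ψ p * ρ ^ j
  lf : ∀ W m xs, Tc W m xs → ev W xs 64 = ψ 64 → ¬ FinOK m W 64 256

structure Cx (W : List Lv) (m : Op2) (xs : List G) (e : ℕ → G) (Ts : List Tab) (fs : List Fc) : Prop
    extends Wc W m xs e Ts fs where
  le : 256 ≤ sz W
  l2 : 1 < llen Ts
  en : En (ev W xs) (e 1)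

structure Nd where
  chk : List Lv → Op2 → List Tab → List Fc → Bool
  ok : ∀ {G : Type u} [Group G] [Finite G] {W m xs} {e : ℕ → G} {Ts fs}, Cx W m xs e Ts fs → ¬ chk W m Ts fs = true

/-- a goal -/
def Gl (W : List Lv) (Ts : List Tab) (fs : List Fc) : Prop :=
  ∀ {G : Type u} [Group G] [Finite G] {m xs} {e : ℕ → G}, ¬ Cx W m xs e Ts fs

theorem Gl.of {m : Op2} {r : List Lv} (hm : Meq r m) (U : List Lv) {Ts : List Tab} {fs : List Fc} (n : Nd.{u})
    (k : n.chk (U ++ r) (mulB m U) Ts fs = true) : Gl.{u} (U ++ r) Ts fs := fun C =>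
  n.ok ⟨⟨⟨C.tw, C.rel, mulB_eq hm C.tw.1, C.inj⟩, C.kn, C.fa⟩, C.le, C.l2, C.en⟩ k

theorem En.cg {ψ ψ' : ℕ → G} {ρ : G} (h : En ψ ρ) (k : ∀ a < 256, ψ' a = ψ a) : En ψ' ρ :=
  ⟨fun g q => (h.cv g fun a ha => k a (by revert a; decide) ▸ q a ha).imp fun p r => ⟨r.1, by rw [k p (by omega), r.2]⟩,
    fun g q => (h.ck g fun a ha => k a (by revert a; decide) ▸ q a ha).imp fun p r => ⟨r.1, by rw [k p r.1]; exact r.2⟩,
    fun W m xs C q => h.lf W m xs C (q.trans (k 64 (by decide)))⟩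

variable {W : List Lv} {m : Op2} {xs : List G} {e : ℕ → G} {Ts : List Tab} {fs : List Fc}

local notation "φ" => ev W xs
local notation "N" => sz W

theorem Cx.cons (C : Cx W m xs e Ts fs) {u v : Wd} (o : okW N (llen Ts) u = true) (o' : okW N (llen Ts) v = true)
    (h : vl φ e u = vl φ e v) : Cx W m xs e Ts ((u, v) :: fs) :=
  ⟨⟨C.toTc, C.kn, List.forall_mem_cons.2 ⟨⟨o, o', h⟩, C.fa⟩⟩, C.le, C.l2, C.en⟩

noncomputable def eqo (W : List Lv) (m : Op2) (Ts : List Tab) (fs : List Fc) (u : Wd) (I : List Ins) (v : Wd) : Bool :=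
  force (sz W) fun n => an (okW n (llen Ts) u) (eqv m n Ts fs I u v)

theorem Cx.eqo (C : Cx W m xs e Ts fs) {u v : Wd} {I : List Ins} (h : eqo W m Ts fs u I v = true) :
    okW N (llen Ts) u = true ∧ okW N (llen Ts) v = true ∧ vl φ e u = vl φ e v := by
  rw [M12S.eqo, force_eq, an_iff] at h
  exact ⟨h.1, C.eqv h.1 h.2⟩

/-- a new fact -/
noncomputable def Nd.eq (u : Wd) (I : List Ins) (v : Wd) (n : Nd.{u}) : Nd.{u} where
  chk W m Ts fs := an (eqo W m Ts fs u I v) (n.chk W m Ts ((u, v) :: fs))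
  ok C h := have ⟨a, b, c⟩ := C.eqo (an_iff.1 h).1; n.ok (C.cons a b c) (an_iff.1 h).2

/-- two different codes with the same value -/
noncomputable def Nd.kill (a b : ℕ) (r : Wd) (I : List Ins) : Nd.{u} where
  chk W m Ts fs := an (nt (Nat.beq a b)) (eqo W m Ts fs (cd a :: r) I (cd b :: r))
  ok C h := by
    obtain ⟨p, q, s⟩ := C.eqo (an_iff.1 h).2
    rw [vl_cons, vl_cons, ltr_cd, ltr_cd, mul_left_inj] at s
    exact nt_iff.1 (an_iff.1 h).1 (beq_iff.2 (C.inj _ (okW_cd.1 p).1 _ (okW_cd.1 q).1 s))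

noncomputable def Nd.fin (nA nX kY nI : ℕ) (ks cs : List ℕ) (ab : List (ℕ × ℕ)) (gl : List G4) (lv : List Lev)
    (xc : List XC) : Nd.{u} where
  chk W m _ _ := finOK m W (nat_lit 64) (nat_lit 256) nA nX kY nI ks cs ab gl lv xc
  ok C h := C.en.lf _ _ _ C.toTc rfl ⟨_, _, _, _, _, _, _, _, _, _, h⟩

/-- a new letter -/
noncomputable def Nd.lt (w : Wd) (n : Nd.{u}) : Nd.{u} where
  chk W m Ts fs := an (okW (sz W) (llen Ts) w) (n.chk W m (lapp Ts [[]]) (([2 * llen Ts], w) :: fs))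
  ok {G} _ _ W m xs e Ts fs C h := by
    obtain ⟨h1, h2⟩ := an_iff.1 h
    have l : llen (lapp Ts [[]]) = llen Ts + 1 := by simp [llen_eq, lapp_eq]
    have k := fun {u} => okW_mono (w := u) (ψ := ev W xs) (n := sz W) (fun _ _ => rfl)
      (fun a (ha : a < llen Ts) => Function.update_of_ne ha.ne (vl (ev W xs) e w) e) le_rfl
      ((Nat.le_succ _).trans l.ge)
    refine n.ok (e := Function.update e (llen Ts) (vl (ev W xs) e w)) ⟨⟨C.toTc, fun j => ?_, List.forall_mem_cons.2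
      ⟨⟨okW_cons.2 ⟨by rw [od_two, hf_two, l]; exact Nat.lt_succ_self _, rfl⟩, (k h1).1, by
        rw [(k h1).2, vl_cons, ltr_two, Function.update_self, vl_nil, mul_one]⟩, fun f hf =>
        have ⟨a, b, c⟩ := C.fa f hf; ⟨(k a).1, (k b).1, by rw [(k a).2, (k b).2, c]⟩⟩⟩, C.le, l ▸ C.l2.trans
        (Nat.lt_succ_self _), by rw [Function.update_of_ne C.l2.ne]; exact C.en⟩ h2
    rw [nth_eq_getD, lapp_eq]
    rcases lt_or_ge j Ts.length with c | c
    · rw [List.getD_append _ _ _ _ c, ← nth_eq_getD, Function.update_of_ne (llen_eq Ts ▸ c.ne)]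
      exact C.kn j
    · rw [List.getD_append_right _ _ _ _ c]
      obtain _ | _ := j - Ts.length <;> exact fun _ q => nomatch q

/-- new entries of a table -/
noncomputable def Nd.tab (j : ℕ) (T : List (T3 × List Ins)) (n : Nd.{u}) : Nd.{u} where
  chk W m Ts fs := an (lall (fun r => an (blt r.1.2.1 (sz W)) (an (Nat.beq (m r.1.1 r.1.2.1) (nat_lit 0))
    (eqo W m Ts fs [2 * j, cd r.1.1] r.2 [cd r.1.2.2, 2 * j]))) T)
    (n.chk W m (Ts.set j (lapp (lmap Prod.fst T) (nth [] Ts j))) fs)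
  ok {G} _ _ W m xs e Ts fs C h := by
    obtain ⟨h1, h2⟩ := an_iff.1 h
    have l : llen (Ts.set j (lapp (lmap Prod.fst T) (nth [] Ts j))) = llen Ts := by simp [llen_eq]
    refine n.ok (e := e) ⟨⟨C.toTc, fun i => ?_, l ▸ C.fa⟩, C.le, l ▸ C.l2, C.en⟩ h2
    have k := C.kn i
    rw [nth_eq_getD, List.getD_eq_getElem?_getD] at k ⊢
    rw [List.getElem?_set]
    split_ifs with c d
    swap
    · exact fun _ q => nomatch q
    swap
    · exact k
    subst c
    rw [Option.getD_some, lapp_eq, lmap_eq]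
    refine List.forall_mem_append.2 ⟨List.forall_mem_map.2 fun r hr => ?_, C.kn j⟩
    have := lall_iff.1 h1 r hr
    simp only [an_iff, blt_iff] at this
    obtain ⟨a, b, c⟩ := C.eqo this.2.2
    have a := (okW_cd.1 (okW_cons.1 a).2).1
    simp only [vl_cons, vl_nil, ltr_cd, ltr_two, mul_one] at c
    exact ⟨a, this.1, (okW_cd.1 b).1, (C.m0 a this.1).1 this.2.1, c⟩

/-- a new level -/
noncomputable def Nd.ext (L : Lv) (w : Wd) (a : ℕ) (I : List Ins) (Is : List (List Ins)) (n : Nd.{u}) : Nd.{u} where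
  chk W m Ts fs := force (sz W) fun M => an (lvOK m W L) (an (eqo W m Ts fs (lapp w w) I [cd (L.B (nat_lit 0))])
    (an (al2 (fun L' I => eqo W m Ts fs (lapp w [cd L'.top]) I (cd (L.A L'.top) :: w)) W Is) (an (blt a M)
    (an (run m Ts w a fun b => allBin (fun c => nt (Nat.beq (m c a) (m b c))) M (llen W) (nat_lit 0))
      (n.chk (L :: W) (lvl L m) Ts (([cd M], w) :: fs))))))
  ok {G} _ _ W m xs e Ts fs C h := by
    simp only [force_eq, an_iff, al2_iff, lapp_eq, blt_iff] at h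
    obtain ⟨h1, h2, h3, h4, h5, h6⟩ := h
    have tw := C.tw.cons C.meq h1
    have tp : L.top = sz W := tw.1.2.1
    obtain ⟨o, -, q⟩ := C.eqo h2
    replace o := (okW_app.1 o).1
    generalize hx : vl (ev W xs) e w = x
    have lo : ∀ b < sz W, ev (L :: W) (x :: xs) b = ev W xs b := fun b hb => ev_lo (tp ▸ hb)
    have le : sz W ≤ sz (L :: W) := tp ▸ Nat.le_add_right _ _
    have k := fun {u} => okW_mono (w := u) (l := llen Ts) (e := e) lo (fun _ _ => rfl) le le_rfl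
    obtain ⟨b, b1, b2, b3⟩ := C.run o h4 h5
    have nx : ∀ c < sz W, ∀ c' < sz W, ev W xs c ≠ ev W xs c' * x := fun c hc c' hc' r => by
      obtain ⟨y, y1, y2⟩ := mul_mem (inv_mem (C.mem hc')) (C.mem hc)
      rw [r, inv_mul_cancel_left, ← hx] at y2
      exact nt_iff.1 (C.allN b3 y y1) (beq_iff.2 ((C.eq y1 h4 b1 y1).2 (by rw [y2, b2])))
    refine n.ok (xs := x :: xs) (e := e) ⟨⟨⟨tw, ⟨C.rel, ?_, fun L' hL => ?_⟩, C.meq.cons tw.1, fun c hc c' hc' r => ?_⟩,
      fun j r hr => ?_, List.forall_mem_cons.2 ⟨⟨okW_cd.2 ⟨tp ▸ Nat.lt_add_of_pos_right (tp ▸ C.pos), rfl⟩, (k o).1, by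
        rw [(k o).2, vl_cons, ltr_cd, ev_hi tp.le, ← tp, Nat.sub_self, C.z, hx, vl_nil, one_mul, mul_one]⟩, fun f hf =>
        have ⟨a, b, c⟩ := C.fa f hf; ⟨(k a).1, (k b).1, by rw [(k a).2, (k b).2, c]⟩⟩⟩, C.le.trans le, C.l2,
        C.en.cg fun a ha => lo a (ha.trans_le C.le)⟩ h6
    · rw [vl_app, vl_cons, ltr_cd, vl_nil, mul_one, hx] at q
      exact q.symm
    · obtain ⟨j, rfl⟩ := List.get_of_mem hL
      have := (C.eqo (h3.get j.2 (h3.length_eq ▸ j.2))).2.2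
      rw [vl_app, vl_cons, vl_cons, ltr_cd, ltr_cd, vl_nil, mul_one, hx] at this
      exact eq_mul_inv_of_mul_eq this.symm
    · change c < L.top + L.top at hc
      change c' < L.top + L.top at hc'
      rcases lt_or_ge c L.top with c1 | c1 <;> rcases lt_or_ge c' L.top with c2 | c2
      · exact C.inj _ (tp ▸ c1) _ (tp ▸ c2) (by rwa [ev_lo c1, ev_lo c2] at r)
      · exact (nx _ (tp ▸ c1) (c' - L.top) (by omega) (by rwa [ev_lo c1, ev_hi c2] at r)).elim
      · exact (nx _ (tp ▸ c2) (c - L.top) (by omega) (by rw [ev_lo c2, ev_hi c1] at r; exact r.symm)).elim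
      · rw [ev_hi c1, ev_hi c2, mul_left_inj] at r
        have := C.inj _ (by omega) _ (by omega) r
        omega
    · obtain ⟨r1, r2, r3, r4⟩ := C.kn j r hr
      exact ⟨r1.trans_le le, r2.trans_le le, r3.trans_le le, by rwa [lo _ r1, lo _ r2, lo _ r3]⟩

noncomputable def prs (m : Op2) (M : ℕ) (Ts : List Tab) (u v : Wd) (l : List ℕ) : (List (ℕ × ℕ) → Bool) → Bool :=
  List.rec (motive := fun _ => (List (ℕ × ℕ) → Bool) → Bool) (fun k => k []) (fun a _ ih k => an (blt a M)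
    (run m Ts u a fun b => run m Ts v a fun c => ih fun r => k ((b, c) :: r))) l

theorem Wc.prs (C : Wc W m xs e Ts fs) {u v : Wd} {l' : ℕ} (o : okW N l' u = true) (o' : okW N l' v = true) {l : List ℕ}
    {k : List (ℕ × ℕ) → Bool} (h : prs m N Ts u v l k = true) : ∃ r, k r = true ∧ ∀ p ∈ r, p.1 < N ∧ p.2 < N ∧
      vl φ e u * (vl φ e v)⁻¹ * φ p.2 = φ p.1 * (vl φ e u * (vl φ e v)⁻¹) := by
  induction l generalizing k with
  | nil => exact ⟨[], h, by simp⟩
  | cons a l ih =>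
    obtain ⟨h1, h2⟩ := an_iff.1 h
    obtain ⟨b, b1, b2, b3⟩ := C.run o (blt_iff.1 h1) h2
    obtain ⟨c, c1, c2, c3⟩ := C.run o' (blt_iff.1 h1) b3
    obtain ⟨r, r1, r2⟩ := ih c3
    refine ⟨_, r1, List.forall_mem_cons.2 ⟨⟨b1, c1, ?_⟩, r2⟩⟩
    rw [← mul_assoc, ← b2, eq_mul_inv_of_mul_eq c2.symm]
    group

/-- `u v⁻¹` centralizes `t, z` (and `v`) -/
noncomputable def Nd.cen (K : Bool) (u v : Wd) (pre : List ℕ) (ts : List (List ℕ)) (ch : List (ℕ × ℕ × Nd.{u})) :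
    Nd.{u} where
  chk W m Ts fs := force (sz W) fun M => an (okW M (llen Ts) u) (an (okW M (llen Ts) v) (an (prs m M Ts u v pre fun r =>
    lall (fun a => decide ((a, a) ∈ r)) (Bool.rec [64, 1, 2] [64, 1] K)) (lall (fun j =>
      fL (lapp (List.replicate j 2) v) fun v' => prs m M Ts u v' (nth [] ts j) fun r => allBin (fun p =>
        orr (lany (fun s => nt (Nat.beq (m p s.2) (m s.1 p))) r) (lany (fun c => an (an (Nat.beq c.1 j) (Nat.beq c.2.1 p))
          (c.2.2.chk W m Ts ((u, cd p :: v') :: fs))) ch)) (Bool.rec 128 256 K) (nat_lit 8) (nat_lit 0))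
      (Bool.rec [0] [0, 1, 2] K))))
  ok {G} _ _ W m xs e Ts fs C h := by
    simp only [force_eq, an_iff, lall_iff, fL_eq, lapp_eq] at h
    obtain ⟨o, o', h1, h2⟩ := h
    obtain ⟨r, r1, r2⟩ := C.prs o o' h1
    have c := fun a ha => (r2 _ (of_decide_eq_true (lall_iff.1 r1 a ha))).2.2
    obtain ⟨p, p1, j, j1, q⟩ : ∃ p < (Bool.rec 128 256 K : ℕ), ∃ j ∈ (Bool.rec [0] [0, 1, 2] K : List ℕ),
        vl (ev W xs) e u * (vl (ev W xs) e v)⁻¹ = ev W xs p * e 1 ^ j := by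
      cases K
      exacts [(C.en.cv _ c).imp fun p s => ⟨s.1, 0, List.mem_singleton_self _, by rw [pow_zero, mul_one, s.2]⟩,
        C.en.ck _ c]
    have b : (Bool.rec 128 256 K : ℕ) ≤ 256 := by cases K <;> decide
    have pl : p < sz W := p1.trans_le (b.trans C.le)
    have s : okW (sz W) (llen Ts) (List.replicate j 2) = true ∧ vl (ev W xs) e (List.replicate j 2) = e 1 ^ j := by
      clear j1 q
      induction j with
      | zero => exact ⟨rfl, (pow_zero _).symm⟩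
      | succ j ih => exact ⟨okW_cons.2 ⟨C.l2, ih.1⟩, by rw [List.replicate_succ, vl_cons, ih.2, pow_succ']; rfl⟩
    have o2 := okW_app.2 ⟨s.1, o'⟩
    have q : vl (ev W xs) e u = ev W xs p * vl (ev W xs) e (List.replicate j 2 ++ v) := by
      rw [vl_app, s.2, ← mul_assoc, ← q, inv_mul_cancel_right]
    obtain ⟨t, t1, t2⟩ := C.prs o o2 (h2 j j1)
    rcases orr_iff.1 (allBin_spec t1 b p p1) with k | k
    · obtain ⟨x, x1, x2⟩ := lany_iff.1 k
      obtain ⟨y1, y2, y3⟩ := t2 x x1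
      rw [q, mul_inv_cancel_right] at y3
      exact nt_iff.1 x2 (beq_iff.2 ((C.eq pl y2 y1 pl).2 y3))
    · obtain ⟨x, -, x2⟩ := lany_iff.1 k
      exact x.2.2.ok (C.cons o (okW_cd.2 ⟨pl, o2⟩) (by rw [vl_cons, ltr_cd, q])) (an_iff.1 x2).2

/-- a goal proved elsewhere -/
noncomputable def Nd.goal (V : List Lv) (Us : List Tab) (gs : List Fc) (h : Gl.{u} V Us gs) : Nd.{u} where
  chk W _ Ts fs := an (weq W V) (an (al2 (fun T U => decide (U = [] ∨ U = T)) Ts Us) (decide (∀ g ∈ gs, g ∈ fs)))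
  ok {G} _ _ W m xs e Ts fs C k := by
    simp only [an_iff, al2_iff, decide_eq_true_eq] at k
    obtain rfl := weq_spec k.1
    have l : llen Us = llen Ts := by rw [llen_eq, llen_eq, k.2.1.length_eq]
    refine h (e := e) ⟨⟨C.toTc, fun j => ?_, fun g hg => l ▸ C.fa g (k.2.2 g hg)⟩, C.le, l ▸ C.l2, C.en⟩
    have q : ∀ {Ts Us : List Tab}, List.Forall₂ (fun T U => U = [] ∨ U = T) Ts Us → ∀ j,
        nth [] Us j = [] ∨ nth [] Us j = nth [] Ts j := fun r => by
      induction r with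
      | nil => exact fun _ => .inl rfl
      | cons a _ ih => exact fun j => Nat.casesOn j a ih
    rcases q k.2.1 j with r | r <;> rw [r]
    exacts [fun _ q => (List.not_mem_nil q).elim, C.kn j]

end CF.M12S
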