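import Cfsg.Agent.M12S.T

/-! The search for the normal subgroups of a coded 2-group that lie in an invariant 2-subgroup. -/

set_option autoImplicit false
set_option linter.unusedSectionVars false

namespace CF.M12S

open Subgroup CF.Loc CF.HSo CF.Comp

noncomputable def ors (l : List ℕ) (Z : ℕ) : ℕ := List.rec (motive := fun _ => ℕ) Z (fun a _ ih => Nat.lor a ih) l

theorem bit_ors {l : List ℕ} {Z i : ℕ} (h : (ors l Z).testBit i = true) :
    Z.testBit i = true ∨ ∃ C ∈ l, C.testBit i = true := by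
  induction l with
  | nil => exact .inl h
  | cons a l ih => exact (bit_lor.1 h).elim (fun q => .inr ⟨a, List.mem_cons_self, q⟩) fun q =>
      (ih q).imp_right fun ⟨C, c, r⟩ => ⟨C, List.mem_cons_of_mem _ c, r⟩

/-- representatives of the extensions, and witnesses -/
abbrev Nod := List ℕ × List ℕ
abbrev Lev := List Nod × List (List ℕ)

noncomputable def nodeOK (m : Op2) (N d t tc : ℕ) (Ts : List ℕ) (n Mk : ℕ) (nx : List ℕ) (Z : ℕ) (a : Nod) : Bool :=
  fL (lmap (fun y => imgM (fun b => m b y) d Z) a.1) fun Cs => an (lall (fun y => blt y N) a.1) (an (blt (cntM d Z) n)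
    (an (lall (fun C => orr (nt (subM C Mk)) (orr (tb C t) (force (Nat.lor Z C) fun U => lany (Nat.beq U) nx))) Cs)
    (an (force (ors Cs Z) fun U => allM (fun y => orr (tb U y) (lany (fun T => nt (tb Z (lk T y))) Ts)) d Mk)
    (an (lall (fun g => an (blt g N) (allM (fun b => force (m b g) fun x => nt (cm m x t)) d Z)) a.2)
      (allM (fun b => force (m b t) fun u => orr (nt (Nat.beq (m u u) (nat_lit 0))) (orr (tb tc u) (lany (cm m u) a.2))) d Z)))))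

noncomputable def bfs (m : Op2) (N d t tc : ℕ) (Ts : List ℕ) (n Mk : ℕ) (lv : List Lev) : List ℕ → (List ℕ → Bool) → Bool :=
  List.rec (motive := fun _ => List ℕ → (List ℕ → Bool) → Bool) (fun cur k => k cur) (fun l _ ih cur k =>
    fL (lmap (spn m d) l.2) fun nx => an (al2 (nodeOK m N d t tc Ts n Mk nx) cur l.1) (ih nx k)) lv

variable {G : Type*} [Group G] [Finite G] {W : List Lv} {m : Op2} {xs : List G}

local notation "φ" => ev W xs
local notation "N" => sz W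
local notation "d" => llen W

/-- the data shared by the searches -/
structure Pre (C : Tc W m xs) (t tc : ℕ) (Ts : List ℕ) : Prop where
  lt : t < N
  tt : φ t * φ t = 1
  sy : IsSyl 2 (C.P ⊓ 𝐜(φ t)) 𝐜(φ t)
  tc : ∀ u, tc.testBit u = true → ∃ p ∈ C.P, p * φ t * p⁻¹ = φ u
  ts : ∀ T ∈ Ts, ∀ y < N, lk T y < N ∧ (φ (lk T y) = φ y * φ y ∨ ∃ p ∈ C.P, φ (lk T y) = p * φ y * p⁻¹ * (φ y)⁻¹)

/-- the invariant subgroup -/
structure Yh (C : Tc W m xs) (t : ℕ) (Y : Subgroup G) (n Mk : ℕ) : Prop where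
  p : IsPGroup 2 Y
  nm : C.P ≤ 𝐍(Y)
  nt : φ t ∉ Y
  cd : Nat.card Y = n
  l : Mk < 2 ^ N
  mm : ∀ a < N, φ a ∈ Y → Mk.testBit a = true

def Iv (C : Tc W m xs) (Y : Subgroup G) (Z : ℕ) : Prop := ∃ S, Sb φ N S Z ∧ S ≤ Y ∧ C.P ≤ 𝐍(S)

theorem fixed_mod {U S P : Subgroup G} (hU : IsPGroup 2 U) (hP : IsPGroup 2 P) (n : P ≤ 𝐍(U)) (h : ¬ U ≤ S) :
    ∃ y ∈ U, y ∉ S ∧ y * y ∈ S ∧ ∀ p ∈ P, p * y * p⁻¹ * y⁻¹ ∈ S := by
  classical
  obtain ⟨y, hy, y1, y2⟩ := exists_fixed_mod hU hP n h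
  have ex : ∃ k, y ^ 2 ^ k ∈ S := (isPGroup_iff_forall.1 hU y hy).imp fun k e => by rw [e]; exact one_mem S
  have k1 := Nat.find_spec ex
  have k2 := fun k => Nat.find_min ex (m := k)
  generalize Nat.find ex = k at k1 k2
  rcases k with _ | k
  · exact absurd (by simpa using k1) y1
  refine ⟨_, pow_mem hy (2 ^ k), k2 k (by omega), by rwa [← pow_two, ← pow_mul, ← pow_succ], fun p hp => ?_⟩
  simpa [commutatorElement_def, mul_assoc] using inv_mem (y2 (commutator_mem_commutator (npow_mem_zpowers y (2 ^ k)) hp))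

variable {C : Tc W m xs} {t tc n Mk : ℕ} {Ts : List ℕ} {Y : Subgroup G}

theorem Pre.node (h : Pre C t tc Ts) (k : Yh C t Y n Mk) {nx : List ℕ} {Z : ℕ} {a : Nod} (i : Iv C Y Z)
    (c : nodeOK m N d t tc Ts n Mk nx Z a = true) : ∃ Z' ∈ nx, Iv C Y Z' := by
  obtain ⟨S, s1, s2, s3⟩ := i
  simp only [nodeOK, fL_eq, force_eq, an_iff, lall_iff, lmap_eq, List.forall_mem_map, blt_iff, orr_iff, nt_iff, lany_iff,
    beq_iff, tb_iff] at c
  obtain ⟨c0, c1, c2, c3, c4, c5⟩ := c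
  have tP := C.mem h.lt
  by_cases e : Y ⊓ C.P ≤ S
  · exfalso
    have nl : ¬ Y ≤ C.P := fun q => by
      have := card_le_of_le ((le_inf le_rfl q).trans e)
      rw [k.cd, C.card s1] at this
      omega
    have pQ := isPGroup_sup k.p C.pg k.nm
    obtain ⟨x, hx, x2⟩ := SetLike.exists_of_lt (lt_inf_normalizer pQ (le_sup_right.lt_of_ne fun q : C.P = _ =>
      nl (le_sup_left.trans q.ge)))
    obtain ⟨y, hy, p, hp, rfl⟩ := (mem_sup_of_le_normalizer k.nm).1 hx.1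
    have yn := (mul_mem_cancel_right (le_normalizer hp)).1 hx.2
    have cS : ∀ s ∈ C.P, y * s * y⁻¹ * s⁻¹ ∈ S := fun s hs => e ⟨by
      simpa [mul_assoc] using mul_mem hy (conj_mem_of_mem_normalizer (k.nm hs) (inv_mem hy)),
      C.P.mul_mem (conj_mem_of_mem_normalizer yn hs) (inv_mem hs)⟩
    obtain ⟨b, b1, b2⟩ := (s1.2 _).1 (cS _ tP)
    have bl := lt_of_bit s1.1 b1
    have ul := C.lt bl h.lt
    have u : φ (m b t) = y * φ t * y⁻¹ := by rw [C.mu bl h.lt, b2, inv_mul_cancel_right]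
    have := C.all s1.1 c5 b1
    simp only [orr_iff, nt_iff, lany_iff, tb_iff] at this
    rcases this with q | q | ⟨g, hg, q⟩
    · exact q ((C.m0 ul ul).2 (by rw [u, conj_mul, h.tt]; simp))
    · obtain ⟨r, hr, q⟩ := h.tc _ q
      have := (h.sy.eq_of_le (Q := (Y ⊔ C.P) ⊓ 𝐜(φ t)) pQ.to_inf_left (inf_le_inf_right _ le_sup_right) inf_le_right).le
        (x := r⁻¹ * y) ⟨mul_mem (mem_sup_right (inv_mem hr)) (mem_sup_left hy), M12S.c1.2 (by
          rw [mul_assoc, mul_inv_eq_iff_eq_mul.1 (u.symm.trans q.symm)]; group)⟩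
      exact x2 (mul_mem ((mul_mem_cancel_left (inv_mem hr)).1 this.1) hp)
    · obtain ⟨gl, g2⟩ := c4 g hg
      obtain ⟨b', d1, d2⟩ := (s1.2 _).1 (inv_mem (cS _ (conj_mem_of_mem_normalizer' yn (C.mem gl))))
      have l' := lt_of_bit s1.1 d1
      refine nt_iff.1 (C.all s1.1 g2 d1) ((C.cm (C.lt l' gl) h.lt).2 ?_)
      have r := (C.cm ul gl).1 q
      rw [C.mu l' gl, d2, show (y * (y⁻¹ * φ g * y) * y⁻¹ * (y⁻¹ * φ g * y)⁻¹)⁻¹ * φ g = y⁻¹ * φ g * y by group]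
      calc _ = y⁻¹ * (φ g * (y * φ t * y⁻¹)) * y := by group
        _ = _ := by rw [← u, ← r, u]; group
  obtain ⟨y, ⟨hy, c, cl, rfl⟩, y1, y2, y3⟩ := fixed_mod k.p.to_inf_left C.pg (le_normalizer_inf k.nm le_normalizer) e
  have := C.all k.l c3 (k.mm c cl hy)
  simp only [orr_iff, nt_iff, lany_iff, tb_iff] at this
  rcases this with q | ⟨T, hT, q⟩
  swap
  · obtain ⟨l, r | ⟨p, hp, r⟩⟩ := h.ts T hT c cl
    exacts [(q ((C.bit s1 l).2 (r ▸ y2))).elim, (q ((C.bit s1 l).2 (r ▸ y3 p hp))).elim]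
  obtain ⟨_, q, r⟩ := (bit_ors q).resolve_left fun q => y1 (s1.mem q)
  obtain ⟨j, hj, rfl⟩ := List.mem_map.1 q
  have im := imgM_iff (f := fun b => m b j) (C.pw s1.1)
  have jl := c0 j hj
  obtain ⟨b, b1, rfl⟩ := (im _).1 r
  have bl := lt_of_bit s1.1 b1
  rw [C.mu bl jl] at hy y1 y2 y3
  have jY := (mul_mem_cancel_left (s2 (s1.mem b1))).1 hy
  have iY : ∀ x, (imgM (fun b => m b j) d Z).testBit x = true → x < N ∧ φ x ∈ Y := fun x hx => by
    obtain ⟨u, u1, rfl⟩ := (im _).1 hx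
    have ul := lt_of_bit s1.1 u1
    exact ⟨C.lt ul jl, C.mu ul jl ▸ mul_mem (s2 (s1.mem u1)) jY⟩
  rcases c2 j hj with q | q | ⟨Z', z1, z2⟩
  · exact (q (beq_iff.2 (Nat.eq_of_testBit_eq fun i => by
      rw [show ∀ a b, Nat.land a b = a &&& b from fun _ _ => rfl, Nat.testBit_and]
      cases u : Nat.testBit _ i
      exacts [rfl, k.mm _ (iY i u).1 (iY i u).2]))).elim
  · exact (k.nt (iY t q).2).elim
  replace hy : φ b * φ j ∈ Y := hy
  generalize hy' : φ b * φ j = y at *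
  have yn : y ∈ 𝐍(S) := s3 (hy' ▸ mul_mem (C.mem bl) (C.mem jl))
  have y4 : y⁻¹ * y⁻¹ ∈ S := by simpa using inv_mem y2
  refine ⟨Z', z1, sbg (fun x => x ∈ S ∨ x * y⁻¹ ∈ S) (.inl (one_mem S)) ?_, ⟨z2 ▸ lt_of_bits fun i q =>
    (bit_lor.1 q).elim (lt_of_bit s1.1) fun q => (iY i q).1, fun x => ?_⟩, fun x hx => hx.elim (@s2 x) fun q =>
      (mul_mem_cancel_right (inv_mem hy)).1 (s2 q), fun p hp => mem_normalizer_of_conj_mem fun x hx =>
        hx.imp (conj_mem_of_mem_normalizer (s3 hp)) fun q => ?_⟩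
  · rintro u v (q | q) (r | r)
    · exact .inl (mul_mem q r)
    · exact .inr (mul_assoc u v _ ▸ mul_mem q r)
    · exact .inr (by simpa [mul_assoc] using mul_mem q (conj_mem_of_mem_normalizer yn r))
    · exact .inl (by simpa [mul_assoc] using mul_mem (mul_mem q (conj_mem_of_mem_normalizer yn r)) y2)
  · rw [← z2]
    refine ⟨fun q => q.elim (fun q => ((s1.2 x).1 q).imp fun _ r => ⟨bit_lor.2 (.inl r.1), r.2⟩) fun q => ?_, ?_⟩
    · obtain ⟨u, u1, u2⟩ := (s1.2 _).1 (mul_mem q (s1.mem b1))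
      exact ⟨_, bit_lor.2 (.inr ((im _).2 ⟨u, u1, rfl⟩)), by rw [C.mu (lt_of_bit s1.1 u1) jl, u2, ← hy']; group⟩
    · rintro ⟨i, q, rfl⟩
      refine (bit_lor.1 q).imp s1.mem fun q => ?_
      obtain ⟨u, u1, rfl⟩ := (im _).1 q
      rw [C.mu (lt_of_bit s1.1 u1) jl, ← hy']
      simpa [mul_assoc] using mul_mem (s1.mem u1) (inv_mem (s1.mem b1))
  · simpa [mul_assoc] using mul_mem (conj_mem_of_mem_normalizer (s3 hp) q) (y3 p hp)

theorem Pre.bfs (h : Pre C t tc Ts) (k : Yh C t Y n Mk) {lv : List Lev} {cur : List ℕ} {f : List ℕ → Bool}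
    (i : ∃ Z ∈ cur, Iv C Y Z) (c : bfs m N d t tc Ts n Mk lv cur f = true) : ∃ l, f l = true ∧ ∃ Z ∈ l, Iv C Y Z := by
  induction lv generalizing cur with
  | nil => exact ⟨cur, c, i⟩
  | cons l lv ih =>
    change fL (lmap (spn m d) l.2) (fun nx => an (al2 (nodeOK m N d t tc Ts n Mk nx) cur l.1)
      (M12S.bfs m N d t tc Ts n Mk lv nx f)) = true at c
    rw [fL_eq, an_iff, al2_iff] at c
    obtain ⟨Z, z, i⟩ := i
    obtain ⟨j, rfl⟩ := List.get_of_mem z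
    exact ih (h.node k i (c.1.get j.2 (c.1.length_eq ▸ j.2))) c.2

theorem Iv.sb {Z : ℕ} (i : Iv C Y Z) (e : cntM d Z = Nat.card Y) : Sb φ N Y Z := by
  obtain ⟨S, s1, s2, -⟩ := i
  exact Loc.eq_of_le_of_card_le s2 (by rw [C.card s1, e]) ▸ s1

end CF.M12S
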