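import Cfsg.Agent.M12S.F

/-! The final check on a coded 2-group: the involution `t` is not in the commutator subgroup. -/

set_option autoImplicit false
set_option linter.unusedSectionVars false

namespace CF.M12S

open Subgroup CF.Loc CF.HSo CF.Comp

noncomputable def cjc (m : Op2) (TI g a : ℕ) : ℕ := force (m g a) fun x => force (lk TI g) (m x)
noncomputable def nm (m : Op2) (TI k : ℕ) (gs : List ℕ) (M : ℕ) : Bool := lall (fun g => force (cjc m TI k g) (tb M)) gs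
noncomputable def p15 (m : Op2) (a : ℕ) : ℕ := force (m a a) fun b => force (m b b) fun c => force (m c c) fun e =>
  force (m e c) fun x => force (m x b) fun y => m y a
noncomputable def zen (m : Op2) (W : List Lv) (a : ℕ) : Bool := lall (cm m a) (tops W)

abbrev T4 := ℕ × ℕ × ℕ × ℕ
abbrev G4 := List ℕ × List ℕ × List ℕ × List ℕ
abbrev XC := List ℕ × List ℕ × ℕ × List Lev

noncomputable def mk4 (m : Op2) (d : ℕ) (g : G4) : T4 := (spn m d g.1, spn m d g.2.1, spn m d g.2.2.1, spn m d g.2.2.2)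
def sw4 (p : T4) : T4 := (p.2.1, p.1, p.2.2)

noncomputable def f4 {α : Type} (l : List T4) : (List T4 → α) → α :=
  List.rec (motive := fun _ => (List T4 → α) → α) (fun k => k []) (fun x _ ih k => force x.1 fun a =>
    force x.2.1 fun b => force x.2.2.1 fun c => force x.2.2.2 fun e => ih fun r => k ((a, b, c, e) :: r)) l

theorem f4_eq {α : Type} (l : List T4) (k : List T4 → α) : f4 l k = k l := by
  induction l generalizing k with
  | nil => rfl
  | cons x l ih =>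
    show force x.1 (fun a => force x.2.1 fun b => force x.2.2.1 fun c => force x.2.2.2 fun e =>
      f4 l fun r => k ((a, b, c, e) :: r)) = _
    rw [force_eq, force_eq, force_eq, force_eq, ih]

noncomputable def snd (m : Op2) (W : List Lv) (N d TI t nA nX nY nI : ℕ) (g : G4) : Bool :=
  force (spn m d g.1) fun A => force (spn m d g.2.1) fun B => force (spn m d g.2.2.1) fun X =>
  force (spn m d g.2.2.2) fun Y => an (sub m N d A g.1) (an (sub m N d B g.2.1) (an (sub m N d X g.2.2.1)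
    (an (sub m N d Y g.2.2.2) (an (nt (Nat.beq A B)) (an (subM A X) (an (subM B X) (an (subM X Y)
    (an (Nat.beq (cntM d A) nA) (an (Nat.beq (cntM d B) nA) (an (Nat.beq (cntM d X) nX) (an (Nat.beq (cntM d Y) nY)
    (an (Nat.beq (icM m d Y) nI) (an (allM (fun a => Nat.beq (m a a) (nat_lit 0)) d A)
    (an (allM (fun a => Nat.beq (m a a) (nat_lit 0)) d B) (an (allM (fun a => blt (m a a) (nat_lit 2)) d X)
    (an (allM (fun a => force (m a a) (tb X)) d Y) (an (lall (fun y => an (nm m TI y g.1 A) (nm m TI y g.2.1 B)) g.2.2.2)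
    (an (an (nm m TI t g.1 B) (nm m TI t g.2.1 A)) (lall (fun k => an (nm m TI k g.2.2.1 X) (an (nm m TI k g.2.2.2 Y)
      (orr (an (nm m TI k g.1 A) (nm m TI k g.2.1 B)) (an (nm m TI k g.1 B) (nm m TI k g.2.1 A)))))
      (t :: tops W))))))))))))))))))))

noncomputable def xOK (m : Op2) (N d TI t tc TS : ℕ) (Ts : List ℕ) (nA nX nY nI : ℕ) (ML : List T4) (X : ℕ) (c : XC) :
    Bool := an (Nat.beq (cntM d X) nX) (orr (an (Nat.beq nX nY) (nt (Nat.beq (icM m d X) nI)))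
  (force (spn m d c.1) fun A => force (spn m d c.2.1) fun B => an (sub m N d A c.1) (an (sub m N d B c.2.1)
    (an (Nat.ble (cntM d A) nA) (an (Nat.ble (cntM d B) nA) (an (allM (fun x => orr (nt (Nat.beq (lk TS x) (nat_lit 0)))
      (orr (tb A x) (orr (tb B x) (an (Nat.beq nA (nat_lit 2)) (an (nt (Nat.beq x (nat_lit 0))) (cm m x t)))))) d X)
    (orr (blt (cntM d A) nA) (orr (blt (cntM d B) nA) (an (tb A c.2.2.1)
      (force (filM (fun y => an (force (lk TS y) (tb X)) (force (cjc m TI y c.2.2.1) (tb A))) d (full N)) fun M =>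
        bfs m N d t tc Ts nY M c.2.2.2 [X] fun l => lall (fun Y => an (Nat.beq (cntM d Y) nY)
          (orr (nt (Nat.beq (icM m d Y) nI)) (decide ((A, B, X, Y) ∈ ML)))) l))))))))))

noncomputable def chOK (m : Op2) (t : ℕ) (L : Lv) (p : ℕ × ℕ) : Bool := an (blt p.1 L.top) (an (blt p.2 L.top)
  (Nat.beq (m L.top t) (force (m p.1 p.1) fun a => force (m p.2 p.2) fun b => force (m t a) fun x =>
    force (m x b) fun y => m y L.top)))

noncomputable def finOK (m : Op2) (W : List Lv) (t n0 nA nX kY nI : ℕ) (ks cs : List ℕ) (ab : List (ℕ × ℕ))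
    (gl : List G4) (lv : List Lev) (xc : List XC) : Bool :=
  force (sz W) fun N => force (llen W) fun d => force (full N) fun FM => force (pk (p15 m) d FM) fun TI =>
  force (Nat.pow (nat_lit 2) kY) fun nY => an (Nat.ble N (nat_lit 4096)) (an (allBin (fun a => force (lk TI a) fun b =>
    an (blt b N) (Nat.beq (m a b) (nat_lit 0))) N d (nat_lit 0)) (an (blt t N) (an (Nat.beq (m t t) (nat_lit 0))
  (an (Nat.ble n0 (cntM d (filM (cm m t) d FM))) (an (al2 (chOK m t) W ab) (an (lall (fun k => blt k N) ks)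
  (an (lall (fun k => blt k N) cs) (force (msk (lmap (fun c => cjc m TI c t) cs)) fun tc =>
    force (pk (fun y => m y y) d FM) fun TS =>
    fL (TS :: lmap (fun k => pk (fun y => force (cjc m TI k y) fun x => force (lk TI y) (m x)) d FM) ks) fun Ts =>
    force (filM (zen m W) d FM) fun ZM => force (filM (fun y => force (lk TS y) (tb ZM)) d FM) fun Mz =>
    f4 (lmap (mk4 m d) gl) fun ML => an (lall (snd m W N d TI t nA nX nY nI) gl)
      (an (decide (ML ++ ML.map sw4).Nodup) (an (Nat.beq (Nat.mod (llen ML) (nat_lit 2)) (nat_lit 1))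
        (bfs m N d t tc Ts nX Mz lv [nat_lit 1] fun l => al2 (xOK m N d TI t tc TS Ts nA nX nY nI ML) l xc)))))))))))

variable {G : Type*} [Group G] [Finite G] {W : List Lv} {m : Op2} {xs : List G}

local notation "φ" => ev W xs
local notation "N" => sz W
local notation "d" => llen W

def IvT (W : List Lv) (xs : List G) (TI : ℕ) : Prop := ∀ a < sz W, lk TI a < sz W ∧ ev W xs (lk TI a) = (ev W xs a)⁻¹

/-- the codes of a tuple -/
def R4 (W : List Lv) (xs : List G) {nA nX nY nI : ℕ} (ω : Om G nA nX nY nI) (p : T4) : Prop :=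
  Sb (ev W xs) (sz W) ω.A p.1 ∧ Sb (ev W xs) (sz W) ω.B p.2.1 ∧ Sb (ev W xs) (sz W) ω.X p.2.2.1 ∧
    Sb (ev W xs) (sz W) ω.Y p.2.2.2

theorem le_or {A U V : Subgroup G} (h : ∀ x ∈ A, x ∈ U ∨ x ∈ V) : A ≤ U ∨ A ≤ V := by
  by_contra n
  obtain ⟨⟨a, a1, a2⟩, b, b1, b2⟩ := (not_or.1 n).imp SetLike.not_le_iff_exists.1 SetLike.not_le_iff_exists.1
  exact (h _ (mul_mem a1 b1)).elim (fun q => a2 ((mul_mem_cancel_right ((h b b1).resolve_right b2)).1 q))
    fun q => b2 ((mul_mem_cancel_left ((h a a1).resolve_left a2)).1 q)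

namespace Tc

variable (C : Tc W m xs) {TI t tc TS nA nX nY nI : ℕ} {Ts : List ℕ} (iv : IvT W xs TI)
include C iv

theorem cjc {g a : ℕ} (hg : g < N) (ha : a < N) : cjc m TI g a < N ∧ φ (cjc m TI g a) = φ g * φ a * (φ g)⁻¹ := by
  rw [M12S.cjc, force_eq, force_eq]
  exact ⟨C.lt (C.lt hg ha) (iv g hg).1, by rw [C.mu (C.lt hg ha) (iv g hg).1, C.mu hg ha, (iv g hg).2]⟩

theorem nm {k M : ℕ} {gs : List ℕ} {S : Subgroup G} (hk : k < N) (hg : ∀ g ∈ gs, g < N) (s : Sb φ N S M)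
    (c : Nat.card S = Nat.card (Cl φ gs)) (h : nm m TI k gs M = true) : cj[φ k] (Cl φ gs) = S :=
  Loc.eq_of_le_of_card_le (map_le_iff_le_comap.2 (Cl.le fun g q => by
    have := lall_iff.1 h g q
    rw [force_eq, tb_iff] at this
    exact mem_comap.2 ((C.cjc iv hk (hg g q)).2 ▸ s.mem this :))) (by rw [card_cj, c])

theorem snd (l : t < N) {g : G4} (h : snd m W N d TI t nA nX nY nI g = true) :
    ∃ ω ∈ sgO.F (φ t) φ N, R4 W xs (nA := nA) (nX := nX) (nY := nY) (nI := nI) ω (mk4 m d g) := by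
  simp only [M12S.snd, force_eq, an_iff, lall_iff, nt_iff, beq_iff, orr_iff] at h
  obtain ⟨a, b, x, y, ne, ax, bx, xy, ca, cb, cx, cy, i, ea, eb, sx, sy, yn, ts, tp⟩ := h
  obtain ⟨a, ga⟩ := C.sub a
  obtain ⟨b, gb⟩ := C.sub b
  obtain ⟨x, gx⟩ := C.sub x
  obtain ⟨y, gy⟩ := C.sub y
  have le : ∀ {S T : Subgroup G} {M K}, Sb φ N S M → Sb φ N T K → subM M K = true → S ≤ T := fun s r k u hu => by
    obtain ⟨c, c1, rfl⟩ := (s.2 u).1 hu
    exact r.mem (subM_spec k c1)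
  have al : ∀ {S : Subgroup G} {M f} {Q : G → Prop}, Sb φ N S M → allM f d M = true →
      (∀ c < N, f c = true → Q (φ c)) → ∀ u ∈ S, Q u := fun s k r u hu => by
    obtain ⟨c, c1, rfl⟩ := (s.2 u).1 hu
    exact r c (lt_of_bit s.1 c1) (C.all s.1 k c1)
  have ab := (C.card a).trans (ca.trans (cb.symm.trans (C.card b).symm))
  have pr : Pr nA nX nY nI (Cl φ g.1) (Cl φ g.2.1) (Cl φ g.2.2.1) (Cl φ g.2.2.2) :=
    ⟨fun e => ne (C.uq a (e ▸ b)), le a x ax, le b x bx, le x y xy, (C.card a).trans ca, (C.card b).trans cb,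
      al a ea fun c l k => (C.m0 l l).1 k, al b eb fun c l k => (C.m0 l l).1 k, (C.card x).trans cx,
      ⟨φ 1, al x sx fun c l k => by
        rw [← C.mu l l]
        obtain e | e : m c c = 0 ∨ m c c = 1 := by have := blt_iff.1 k; omega
        exacts [.inl (e ▸ C.z), .inr (e ▸ rfl)]⟩,
      al y sy fun c l k => C.mu l l ▸ x.mem (tb_iff.1 k),
      Cl.le fun u hu => cj_eq_self_iff.1 (C.nm iv (gy u hu) ga a rfl (yn u hu).1),
      Cl.le fun u hu => cj_eq_self_iff.1 (C.nm iv (gy u hu) gb b rfl (yn u hu).2), (C.card y).trans cy,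
      (C.ic y).trans i⟩
  have q : ∀ k ∈ t :: tops W, k < N := List.forall_mem_cons.2 ⟨l, fun _ => C.top_lt⟩
  have hX := fun k hk => C.nm iv (q k hk) gx x rfl (tp k hk).1
  have hY := fun k hk => C.nm iv (q k hk) gy y rfl (tp k hk).2.1
  refine ⟨⟨_, _, _, _, pr⟩, ⟨Om.ext (C.nm iv l ga b ab.symm ts.1) (C.nm iv l gb a ab ts.2) (hX t List.mem_cons_self)
    (hY t List.mem_cons_self), C.ind fun k hk => ?_⟩, a, b, x, y⟩
  have hk := List.mem_cons_of_mem t hk
  exact (tp k hk).2.2.imp (fun r => Om.ext (C.nm iv (q k hk) ga a rfl r.1) (C.nm iv (q k hk) gb b rfl r.2) (hX k hk)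
    (hY k hk)) fun r => Om.ext (C.nm iv (q k hk) ga b ab.symm r.1) (C.nm iv (q k hk) gb a ab r.2) (hX k hk) (hY k hk)

theorem xok (h : Pre C t tc Ts) (ts : ∀ y < N, lk TS y = m y y) {ML : List T4} {ω : Om G nA nX nY nI}
    (f : ω ∈ sgO.F (φ t) φ N) (p : IsPGroup 2 ω.Y) (nY' : C.P ≤ 𝐍(ω.Y)) (tY : φ t ∉ ω.Y) {X : ℕ} (i : Iv C ω.X X)
    {c : XC} (k : xOK m N d TI t tc TS Ts nA nX nY nI ML X c = true) : ∃ q ∈ ML ++ ML.map sw4, R4 W xs ω q := by
  obtain ⟨A, B, X', Y, o⟩ := ω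
  simp only [xOK, force_eq, an_iff, orr_iff, nt_iff, beq_iff, ble_iff, blt_iff, tb_iff] at k
  have x : Sb φ N X' X := i.sb (k.1.trans o.cX.symm)
  rcases k.2 with k | ⟨a, b, ca, cb, cv, k⟩
  · obtain rfl : X' = Y := Loc.eq_of_le_of_card_le o.xY (by rw [o.cX, o.cY, k.1])
    exact (k.2 ((C.ic x).symm.trans o.iY)).elim
  obtain ⟨a, ga⟩ := C.sub a
  obtain ⟨b, gb⟩ := C.sub b
  have cov : ∀ {A B}, Pr nA nX nY nI A B X' Y → cj[φ t] A = B → A = Cl φ c.1 ∨ A = Cl φ c.2.1 := fun {A B} o e =>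
    (le_or fun u hu => by
      obtain ⟨v, v1, rfl⟩ := (x.2 u).1 (o.aX hu)
      have l := lt_of_bit x.1 v1
      have := C.all x.1 cv v1
      simp only [orr_iff, nt_iff, an_iff, tb_iff, ts v l] at this
      rcases this with q | q | q | ⟨q1, q2, q3⟩
      · exact (q ((C.m0 l l).2 (o.eA _ hu))).elim
      · exact .inl (a.mem q)
      · exact .inr (b.mem q)
      have hb : φ v ∈ B := e ▸ mem_cj.2 (by rwa [mul_assoc, (C.cm l h.lt).1 q3, inv_mul_cancel_left])
      have z : ∀ {U : Subgroup G}, φ v ∈ U → Nat.card U = nA → zpowers (φ v) = U := fun r s =>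
        Loc.eq_of_le_of_card_le (zpowers_le.2 r) (by
          rw [s, beq_iff.1 q1, Nat.card_zpowers]
          exact Nat.lt_of_le_of_ne (orderOf_pos _) fun e => q2 (beq_iff.2 ((C.one l).1 (orderOf_eq_one_iff.1 e.symm))))
      exact (o.ne ((z hu o.cA).symm.trans (z hb o.cB))).elim).imp
      (fun q => Loc.eq_of_le_of_card_le q (by rw [C.card a, o.cA]; exact ca))
      fun q => Loc.eq_of_le_of_card_le q (by rw [C.card b, o.cA]; exact cb)
  have e : A = Cl φ c.1 ∧ B = Cl φ c.2.1 ∨ A = Cl φ c.2.1 ∧ B = Cl φ c.1 := by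
    rcases cov o (congrArg Om.A f.1) with r | r <;> rcases cov o.symm (congrArg Om.B f.1) with s | s
    exacts [(o.ne (r.trans s.symm)).elim, .inl ⟨r, s⟩, .inr ⟨r, s⟩, (o.ne (r.trans s.symm)).elim]
  have o' : Pr nA nX nY nI (Cl φ c.1) (Cl φ c.2.1) X' Y := e.elim (fun r => r.1 ▸ r.2 ▸ o) fun r => r.1 ▸ r.2 ▸ o.symm
  rw [← C.card a, ← C.card b, o'.cA, o'.cB] at k
  obtain ⟨w, k⟩ := (k.resolve_left (lt_irrefl _)).resolve_left (lt_irrefl _)
  have wl := lt_of_bit a.1 w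
  obtain ⟨l, k, Z, z, j⟩ := h.bfs ⟨p, nY', tY, o.cY, (C.fil (full_lt _)).1, fun y yl hy => ((C.fil (full_lt _)).2 y).2
    ⟨bit_full.2 yl, an_iff.2 ⟨tb_iff.2 (by rw [ts y yl, C.bit x (C.lt yl yl), C.mu yl yl]; exact o.sY _ hy), tb_iff.2 (by
      rw [C.bit a (C.cjc iv yl wl).1, (C.cjc iv yl wl).2]
      exact conj_mem_of_mem_normalizer (o'.nA hy) (a.mem w))⟩⟩⟩
    ⟨X, List.mem_singleton_self X, i.imp fun _ r => ⟨r.1, r.2.1.trans o.xY, r.2.2⟩⟩ k
  have k := an_iff.1 (lall_iff.1 k Z z)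
  have y : Sb φ N Y Z := j.sb ((beq_iff.1 k.1).trans o.cY.symm)
  have k := of_decide_eq_true ((orr_iff.1 k.2).resolve_left fun q => nt_iff.1 q (beq_iff.2 ((C.ic y).symm.trans o.iY)))
  rcases e with ⟨rfl, rfl⟩ | ⟨rfl, rfl⟩
  exacts [⟨_, List.mem_append_left _ k, a, b, x, y⟩, ⟨_, List.mem_append_right _ (List.mem_map_of_mem k), b, a, x, y⟩]

omit iv in
theorem fin {n0 kY : ℕ} {ks cs : List ℕ} {ab : List (ℕ × ℕ)} {gl : List G4} {lv : List Lev} {xc : List XC}
    (bd : ∀ Q : Subgroup G, IsPGroup 2 Q → Q ≤ 𝐜(φ t) → Nat.card Q ≤ n0)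
    (h : finOK m W t n0 nA nX kY nI ks cs ab gl lv xc = true) : φ t ∉ commutator G := fun hd => by
  simp only [finOK, force_eq, fL_eq, f4_eq, an_iff, ble_iff, blt_iff, lall_iff, lmap_eq, al2_iff, beq_iff (a := Nat.mod _ _),
    decide_eq_true_eq, llen_eq (List.map _ _)] at h
  obtain ⟨h0, h1, l, tt, h2, h3, h4, h5, h6, h7, h8, h9⟩ := h
  generalize pk (p15 m) d (full N) = TI at *
  have iv : IvT W xs TI := fun a ha => by
    have := an_iff.1 (C.allN h1 a ha)
    exact ⟨blt_iff.1 this.1, eq_inv_of_mul_eq_one_right ((C.m0 ha (blt_iff.1 this.1)).1 this.2)⟩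
  have pk' : ∀ {f : ℕ → ℕ}, (∀ y < N, f y < N) → ∀ y < N, lk (pk f d (full N)) y = f y := fun b y hy =>
    pk_spec (C.pw (full_lt _)) (fun i hi => (b i (C.tw.1.sz_eq ▸ hi)).trans_le h0) (bit_full.2 hy)
  have ts := pk' fun y hy => C.lt hy hy
  have fl := fun f => C.fil (f := f) (full_lt N)
  have pre : Pre C t _ _ := ⟨l, (C.m0 l l).1 tt, ⟨inf_le_right, C.pg.to_inf_left, fun Q p q r =>
    (Loc.eq_of_le_of_card_le q ((bd Q p r).trans (h2.trans (C.card ⟨(fl _).1, fun x => ⟨fun hx => by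
      obtain ⟨a, ha, rfl⟩ := hx.1
      exact ⟨a, ((fl _).2 a).2 ⟨bit_full.2 ha, (C.cm l ha).2 (c1.1 hx.2).symm⟩, rfl⟩, by
      rintro ⟨a, ha, rfl⟩
      have := ((fl _).2 a).1 ha
      exact ⟨C.mem (bit_full.1 this.1), c1.2 ((C.cm l (bit_full.1 this.1)).1 this.2).symm⟩⟩⟩).ge))).symm⟩,
    fun u hu => by
      obtain ⟨c, hc, rfl⟩ := List.mem_map.1 (bit_msk.1 hu)
      exact ⟨_, C.mem (h5 c hc), (C.cjc iv (h5 c hc) l).2.symm⟩,
    List.forall_mem_cons.2 ⟨fun y hy => by rw [ts y hy]; exact ⟨C.lt hy hy, .inl (C.mu hy hy)⟩,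
      List.forall_mem_map.2 fun k hk y hy => by
        have q := fun y hy => C.cjc iv (h4 k hk) (a := y) hy
        rw [pk' (fun y hy => C.lt (q y hy).1 (iv y hy).1) y hy]
        exact ⟨C.lt (q y hy).1 (iv y hy).1, .inr ⟨_, C.mem (h4 k hk), by
          rw [C.mu (q y hy).1 (iv y hy).1, (q y hy).2, (iv y hy).2]⟩⟩⟩⟩
  have d4 := (sgO (nA := nA) (nX := nX) (nY := Nat.pow 2 kY) (nI := nI)).tower pre.tt hd C.tw C.rel (fun _ _ => rfl)
    fun L hL => by
      obtain ⟨j, rfl⟩ := List.get_of_mem hL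
      have := h3.get j.2 (h3.length_eq ▸ j.2)
      simp only [chOK, an_iff, blt_iff, force_eq, beq_iff] at this
      obtain ⟨a, b, e⟩ := this
      have u := C.tw.1.top_le hL
      have a' := a.trans_le (Nat.le_of_add_right_le u.1)
      have b' := b.trans_le (Nat.le_of_add_right_le u.1)
      have k : (W.get j).top < N := by omega
      refine ⟨_, a, _, b, ?_⟩
      rw [← C.mu k l, ← C.mu a' a', ← C.mu b' b', ← C.mu l (C.lt a' a'), ← C.mu (C.lt l (C.lt a' a')) (C.lt b' b'),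
        ← C.mu (C.lt (C.lt l (C.lt a' a')) (C.lt b' b')) k]
      exact congrArg _ e
  rw [card_rel h7 (R4 W xs) (fun ω f => ?_) (fun q hq => ?_)
    (fun a b => Prod.ext (C.uq a.1 b.1) (Prod.ext (C.uq a.2.1 b.2.1) (Prod.ext (C.uq a.2.2.1 b.2.2.1)
      (C.uq a.2.2.2 b.2.2.2))))
    fun a b => Om.ext (ext fun x => (a.1.2 x).trans (b.1.2 x).symm) (ext fun x => (a.2.1.2 x).trans (b.2.1.2 x).symm)
      (ext fun x => (a.2.2.1.2 x).trans (b.2.2.1.2 x).symm) (ext fun x => (a.2.2.2.2 x).trans (b.2.2.2.2 x).symm),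
    List.length_append, List.length_map (f := sw4)] at d4
  · change _ % 2 = 1 at h8
    omega
  · have p : IsPGroup 2 ω.Y := IsPGroup.of_card ω.ok.cY
    have nX' : C.P ≤ 𝐍(ω.X) := C.le fun a ha => cj_eq_self_iff.1 ((f.2 a ha).elim (congrArg Om.X) (congrArg Om.X))
    have nY' : C.P ≤ 𝐍(ω.Y) := C.le fun a ha => cj_eq_self_iff.1 ((f.2 a ha).elim (congrArg Om.Y) (congrArg Om.Y))
    have tY : φ t ∉ ω.Y := fun q => ω.ok.ne ((cj_eq_self (ω.ok.nA q)).symm.trans (congrArg Om.A f.1))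
    obtain ⟨w, hw⟩ := ω.ok.sX
    obtain ⟨r, k, Z, z, j⟩ := pre.bfs ⟨p.to_le ω.ok.xY, nX', fun q => tY (ω.ok.xY q), ω.ok.cX, (fl _).1, fun y yl hy =>
      ((fl _).2 y).2 ⟨bit_full.2 yl, tb_iff.2 (by
        have u := C.lt yl yl
        rw [ts y yl]
        refine ((fl _).2 _).2 ⟨bit_full.2 u, lall_iff.2 fun k hk => (C.cm u (C.top_lt hk)).2 ?_⟩
        have v := hw _ (conj_mem_of_mem_normalizer (nX' (C.mem (C.top_lt hk))) hy)
        rw [conj_mul, conj_eq_one_iff] at v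
        rw [C.mu yl yl]
        rcases v with v | v
        · simp [v]
        rcases hw _ hy with s | s
        · simp [s]
        · exact (mul_inv_eq_iff_eq_mul.1 (v.trans s.symm)).symm)⟩⟩
      ⟨1, List.mem_singleton_self _, ⊥, ⟨Nat.one_lt_two_pow C.pos.ne', fun x => by
        simp only [Nat.testBit_one_eq_true_iff_self_eq_zero, exists_eq_left, C.z, mem_bot]
        exact eq_comm⟩, bot_le, by simp⟩ h9
    obtain ⟨u, rfl⟩ := List.get_of_mem z
    have k := al2_iff.1 k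
    exact C.xok iv pre ts f p nY' tY j (k.get u.2 (k.length_eq ▸ u.2))
  · have s : ∀ q ∈ gl.map (mk4 m d), ∃ ω ∈ sgO.F (φ t) φ N, R4 W xs ω q := List.forall_mem_map.2 fun g hg =>
      C.snd iv l (h6 g hg)
    rcases List.mem_append.1 hq with r | r
    · exact s q r
    · obtain ⟨q, r', rfl⟩ := List.mem_map.1 r
      obtain ⟨ω, f, a, b, x⟩ := s q r'
      exact ⟨ω.sw, ⟨congrArg Om.sw f.1, fun a ha => (f.2 a ha).imp (congrArg Om.sw) (congrArg Om.sw)⟩, b, a, x⟩

end Tc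

end CF.M12S
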