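import Cfsg.Agent.Loc.JC1
import Cfsg.Agent.HSo.B

/-! A parity argument: an involution of the commutator subgroup moves a multiple of four points. -/

set_option autoImplicit false

namespace CF.M12S

open Subgroup CF.Loc CF.HSo Equiv
open scoped commutatorElement

theorem four_dvd {Ω : Type*} {σ f : Ω → Ω} (ss : ∀ ω, σ (σ ω) = ω) (s1 : ∀ ω, σ ω ≠ ω) (c : ∀ ω, f (σ ω) = σ (f ω))
    {s : Set Ω} (hs : s.Finite) (h : ∀ ω ∈ s, σ ω ∈ s ∧ f ω ∈ s ∧ f ω ≠ ω ∧ f ω ≠ σ ω ∧ (f (f ω) = ω ∨ f (f ω) = σ ω)) :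
    4 ∣ s.ncard := by
  induction hn : s.ncard using Nat.strong_induction_on generalizing s with
  | _ n ih =>
  rcases s.eq_empty_or_nonempty with rfl | ⟨ω, hω⟩
  · simp [← hn]
  obtain ⟨h1, h2, h3, h4, h5⟩ := h ω hω
  have si : Function.Injective σ := Function.LeftInverse.injective ss
  have l : ({ω, σ ω, f ω, σ (f ω)} : Set Ω) ⊆ s := by
    simp only [Set.insert_subset_iff, Set.singleton_subset_iff]
    exact ⟨hω, h1, h2, (h _ h2).1⟩
  have k : ({ω, σ ω, f ω, σ (f ω)} : Set Ω).ncard = 4 := Set.ncard_eq_four.2 ⟨_, _, _, _, (s1 ω).symm, h3.symm,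
    fun e => h4 (by rw [← ss (f ω), ← e]), h4.symm, fun e => h3 (si e).symm, (s1 _).symm, rfl⟩
  have a : ∀ x, σ x ∈ ({ω, σ ω, f ω, σ (f ω)} : Set Ω) → x ∈ ({ω, σ ω, f ω, σ (f ω)} : Set Ω) := fun x q => by
    rw [← ss x]
    generalize σ x = y at q
    rcases q with rfl | rfl | rfl | rfl <;> simp [ss]
  have b : ∀ x ∈ ({ω, σ ω, f ω, σ (f ω)} : Set Ω), f x ∈ ({ω, σ ω, f ω, σ (f ω)} : Set Ω) := by
    rintro x (q | q | q | q) <;> rw [q] <;> rcases h5 with r | r <;> simp [c, r, ss]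
  have e := Set.ncard_diff_add_ncard_of_subset l hs
  rw [k, hn] at e
  rw [← e]
  refine dvd_add (ih _ (by omega) (hs.subset Set.diff_subset) (fun x hx => ?_) rfl) dvd_rfl
  obtain ⟨x1, x2, x3, x4, x5⟩ := h x hx.1
  refine ⟨⟨x1, mt (a x) hx.2⟩, ⟨x2, fun q => hx.2 ?_⟩, x3, x4, x5⟩
  exact x5.elim (fun r => r ▸ b _ q) fun r => a x (r ▸ b _ q)

section
variable {G Ω : Type*} [Group G] [MulAction G Ω] {σ : Ω → Ω} {t : G}

/-- a fixed point free involution commuting with the action -/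
structure Sg (G : Type*) {Ω : Type*} [Group G] [MulAction G Ω] (σ : Ω → Ω) : Prop where
  ss : ∀ ω, σ (σ ω) = ω
  s1 : ∀ ω, σ ω ≠ ω
  c : ∀ (g : G) ω, g • σ ω = σ (g • ω)

/-- the stabilizer of a block -/
def Sg.B (h : Sg G σ) (ω : Ω) : Subgroup G where
  carrier := {g | g • ω = ω ∨ g • ω = σ ω}
  one_mem' := .inl (one_smul _ _)
  mul_mem' := by rintro a b (e | e) (e' | e') <;> simp [mul_smul, e, e', h.c, h.ss]
  inv_mem' := by
    rintro a (e | e)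
    · exact .inl (inv_smul_eq_iff.2 e.symm)
    · exact .inr (by rw [inv_smul_eq_iff, h.c, e, h.ss])

theorem Sg.sq (h : Sg G σ) {ω : Ω} {a : G} (e : a ∈ h.B ω) : (a * a) • ω = ω := by
  rcases e with e | e <;> simp [mul_smul, e, h.c, h.ss]

variable [Finite Ω] (h : Sg G σ)
include h

theorem Sg.four (tt : t * t = 1) (hd : t ∈ commutator G) : 4 ∣ {ω | t • ω = σ ω}.ncard := by
  classical
  haveI := Fintype.ofFinite Ω
  have t2 : ∀ ω : Ω, t • t • ω = ω := fun ω => by rw [← mul_smul, tt, one_smul]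
  have e := Perm.sign_of_pow_two_eq_one (σ := MulAction.toPermHom G Ω t) (by rw [← map_pow, pow_two, tt, map_one])
  have e1 : Perm.sign (MulAction.toPermHom G Ω t) = 1 :=
    Abelianization.commutator_subset_ker (Perm.sign.comp (MulAction.toPermHom G Ω)) hd
  have c1 : Fintype.card Ω - Fintype.card (Function.fixedPoints (MulAction.toPermHom G Ω t)) =
      {ω : Ω | t • ω ≠ ω}.ncard := by
    rw [← Fintype.card_subtype_compl, ← Nat.card_eq_fintype_card]; rfl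
  rw [e1, c1, eq_comm, neg_one_pow_eq_one_iff_even (by decide)] at e
  have d1 := four_dvd (f := (t • ·)) h.ss h.s1 (h.c t) (s := {ω | t • ω ≠ ω ∧ t • ω ≠ σ ω}) (Set.toFinite _)
    fun ω q => ⟨⟨fun r => q.1 (by rw [← h.ss (t • ω), ← h.c, r, h.ss]), fun r => q.2 (by
      rw [← h.ss (t • ω), ← h.c, r, h.ss (σ ω)])⟩, ⟨by rw [t2]; exact q.1.symm, fun r => q.2 (by rw [← h.ss (t • ω), ← r, t2])⟩,
      q.1, q.2, .inl (t2 ω)⟩
  have d2 : {ω : Ω | t • ω ≠ ω}.ncard = {ω | t • ω = σ ω}.ncard + {ω | t • ω ≠ ω ∧ t • ω ≠ σ ω}.ncard := by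
    rw [← Set.ncard_union_eq (Set.disjoint_left.2 fun ω a b => b.2 a)]
    congr 1
    ext ω
    exact ⟨fun a => (em _).imp_right fun b => ⟨a, b⟩, fun a => a.elim (fun b c => h.s1 ω (b.symm.trans c)) And.left⟩
  have d3 : 2 ∣ {ω : Ω | t • ω = σ ω}.ncard := by
    rw [Set.ncard_eq_toFinset_card', ← ZMod.natCast_eq_zero_iff, ← nsmul_one, ← Finset.sum_const]
    exact Finset.sum_involution (fun ω _ => σ ω) (fun _ _ => by decide) (fun ω _ _ => h.s1 ω)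
      (fun ω q => by simpa [h.c] using congrArg σ (by simpa using q)) fun ω _ => h.ss ω
  obtain ⟨k, e⟩ := e
  omega

/-- the blocks swapped by `t` and fixed by the codes below `n` -/
def Sg.F (t : G) (φ : ℕ → G) (n : ℕ) : Set Ω := {ω | t • ω = σ ω ∧ ∀ a < n, φ a ∈ h.B ω}

theorem Sg.step {φ : ℕ → G} {n : ℕ} (e : ∀ a < n, φ (a + n) = φ a * φ n) (p : 0 < n) (q : ∃ a < n, φ a = φ n * φ n)
    (k : ∀ a < n, ∃ b < n, φ n * φ a = φ b * φ n)
    (r : ∃ a < n, ∃ b < n, φ n * t = t * (φ a * φ a) * (φ b * φ b) * φ n) (d : 4 ∣ (h.F t φ n).ncard) :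
    4 ∣ (h.F t φ (n + n)).ncard := by
  obtain ⟨a, ha, b, hb, r⟩ := r
  obtain ⟨c, hc, q⟩ := q
  have l : h.F t φ (n + n) = h.F t φ n \ {ω | ω ∈ h.F t φ n ∧ φ n ∉ h.B ω} := by
    ext ω
    refine ⟨fun m => ⟨⟨m.1, fun a ha => m.2 a (by omega)⟩, fun q => q.2 (m.2 n (by omega))⟩, fun m => ⟨m.1.1, fun a ha => ?_⟩⟩
    rcases lt_or_ge a n with u | u
    · exact m.1.2 a u
    · rw [← Nat.sub_add_cancel u, e _ (by omega)]
      exact mul_mem (m.1.2 _ (by omega)) (by_contra fun v => m.2 ⟨m.1, v⟩)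
  rw [l, Set.ncard_diff (fun _ m => m.1) (Set.toFinite _)]
  refine Nat.dvd_sub d (four_dvd (f := ((φ n)⁻¹ • ·)) h.ss h.s1 (h.c _) (Set.toFinite _) fun ω m => ?_)
  have i : ∀ {g : G} {x}, g ∈ h.B (σ x) ↔ g ∈ h.B x := fun {g x} => by
    change g • σ x = σ x ∨ g • σ x = σ (σ x) ↔ g • x = x ∨ g • x = σ x
    rw [h.c, (Function.LeftInverse.injective h.ss).eq_iff, (Function.LeftInverse.injective h.ss).eq_iff]
  have j : ∀ {g g' : G}, φ n * g = g' * φ n → g' ∈ h.B ω → g ∈ h.B ((φ n)⁻¹ • ω) := fun {g g'} u v => by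
    have : g • (φ n)⁻¹ • ω = (φ n)⁻¹ • g' • ω := by
      rw [← mul_smul, ← mul_smul, eq_inv_mul_of_mul_eq u]; group
    exact v.imp (fun w => by rw [this, w]) fun w => by rw [this, w, h.c]
  refine ⟨⟨⟨by rw [h.c, m.1.1], fun a ha => i.2 (m.1.2 a ha)⟩, mt i.1 m.2⟩, ⟨⟨?_, fun a ha => ?_⟩, fun v => m.2 ?_⟩,
    fun v => m.2 ((inv_mem_iff).1 (.inl v)), fun v => m.2 ((inv_mem_iff).1 (.inr v)), ?_⟩
  · rw [← mul_smul, show t * (φ n)⁻¹ = (φ n)⁻¹ * (t * (φ a * φ a) * (φ b * φ b)) by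
      rw [eq_inv_mul_iff_mul_eq, ← mul_assoc, r]; group, mul_smul, mul_smul, mul_smul, h.sq (m.1.2 b hb),
      h.sq (m.1.2 a ha), m.1.1, h.c]
  · obtain ⟨b, hb, u⟩ := k a ha
    exact j u (m.1.2 b hb)
  · rcases v with v | v <;> rw [smul_inv_smul] at v
    · exact (inv_mem_iff).1 (.inl v.symm)
    · exact (inv_mem_iff).1 (.inr (by rw [← h.ss ((φ n)⁻¹ • ω), ← v]))
  · have := inv_mem (m.1.2 c hc)
    rw [q, mul_inv_rev] at this
    exact this.imp (mul_smul _ _ ω).symm.trans (mul_smul _ _ ω).symm.trans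

theorem Sg.tower (tt : t * t = 1) (hd : t ∈ commutator G) {φ : ℕ → G} : ∀ {W : List Lv} {xs : List G}, Tw W → Rel W xs →
    (∀ a < sz W, φ a = ev W xs a) →
    (∀ L ∈ W, ∃ a < L.top, ∃ b < L.top, φ L.top * t = t * (φ a * φ a) * (φ b * φ b) * φ L.top) →
    4 ∣ (h.F t φ (sz W)).ncard
  | [], [], _, _, e, _ => by
    convert h.four tt hd
    ext ω
    exact ⟨And.left, fun m => ⟨m, fun a ha => by rw [e a ha]; exact one_mem _⟩⟩
  | L :: r, x :: xs, w, k, e, q => by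
    have H := hm_of w.1 w.2 k
    have p : 0 < L.top := w.1.2.1 ▸ w.1.1.pos
    have lo : ∀ a < L.top, φ a = ev r xs a := fun a ha => by rw [e a (Nat.lt_add_right _ ha), ev_lo ha]
    have hi : ∀ a < L.top, φ (a + L.top) = φ a * x := fun a ha => by
      rw [e _ (Nat.add_lt_add_right ha _), ev_hi (Nat.le_add_left _ _), Nat.add_sub_cancel, lo a ha]
    have x1 : φ L.top = x := by simpa [lo 0 p, ev_zero w.1.1] using hi 0 p
    refine h.step (fun a ha => x1 ▸ hi a ha) p ⟨_, (w.1.2.2 0 p).2, by rw [lo _ (w.1.2.2 0 p).2, x1, k.2.1]⟩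
      (fun a ha => ⟨_, (w.1.2.2 a ha).1, ?_⟩) (q L List.mem_cons_self) (w.1.2.1 ▸ Sg.tower tt hd ⟨w.1.1, w.2.1⟩ k.1
      (fun a ha => lo a (w.1.2.1 ▸ ha)) fun L' m => q L' (List.mem_cons_of_mem _ m))
    have u := H.2.2 L.top (Nat.lt_add_of_pos_right p) a (Nat.lt_add_right _ ha)
    rw [← e _ u.1, ← e _ (Nat.lt_add_of_pos_right p), ← e _ (Nat.lt_add_right _ ha), mul_cons, lvl10 le_rfl ha,
      Nat.sub_self, w.1.1.zero_mul _ (w.1.2.1 ▸ (w.1.2.2 a ha).1), hi _ (w.1.2.2 a ha).1] at u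
    rw [← u.2, x1]

end

theorem card_rel {α β : Type*} {s : Set α} {L : List β} (nd : L.Nodup) (R : α → β → Prop)
    (h1 : ∀ a ∈ s, ∃ b ∈ L, R a b) (h2 : ∀ b ∈ L, ∃ a ∈ s, R a b) (u1 : ∀ {a b b'}, R a b → R a b' → b = b')
    (u2 : ∀ {a a' b}, R a b → R a' b → a = a') : s.ncard = L.length := by
  classical
  choose f f1 f2 using h1
  rw [← List.toFinset_card_of_nodup nd, ← Set.ncard_coe_finset]
  refine Set.ncard_congr f (fun a ha => by simpa using f1 a ha) (fun a b ha hb e => u2 (f2 a ha) (e ▸ f2 b hb))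
    fun b hb => ?_
  obtain ⟨a, ha, r⟩ := h2 b (by simpa using hb)
  exact ⟨a, ha, u1 (f2 a ha) r⟩

variable {G : Type*} [Group G]

/-- the number of solutions of `y² = 1` -/
noncomputable def ic (Y : Subgroup G) : ℕ := Nat.card {y // y ∈ Y ∧ y * y = 1}

/-- the tuples of subgroups -/
structure Pr (nA nX nY nI : ℕ) (A B X Y : Subgroup G) : Prop where
  ne : A ≠ B
  aX : A ≤ X
  bX : B ≤ X
  xY : X ≤ Y
  cA : Nat.card A = nA
  cB : Nat.card B = nA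
  eA : ∀ a ∈ A, a * a = 1
  eB : ∀ a ∈ B, a * a = 1
  cX : Nat.card X = nX
  sX : ∃ w, ∀ x ∈ X, x * x = 1 ∨ x * x = w
  sY : ∀ y ∈ Y, y * y ∈ X
  nA : Y ≤ 𝐍(A)
  nB : Y ≤ 𝐍(B)
  cY : Nat.card Y = nY
  iY : ic Y = nI

variable {nA nX nY nI : ℕ} {A B X Y : Subgroup G}

theorem Pr.symm (h : Pr nA nX nY nI A B X Y) : Pr nA nX nY nI B A X Y :=
  ⟨h.ne.symm, h.bX, h.aX, h.xY, h.cB, h.cA, h.eB, h.eA, h.cX, h.sX, h.sY, h.nB, h.nA, h.cY, h.iY⟩

theorem Pr.cj (h : Pr nA nX nY nI A B X Y) (g : G) : Pr nA nX nY nI (cj[g] A) (cj[g] B) (cj[g] X) (cj[g] Y) := by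
  have s : ∀ a : G, g⁻¹ * a * g * (g⁻¹ * a * g) = g⁻¹ * (a * a) * g := fun a => by group
  have o : ∀ a : G, g⁻¹ * a * g = 1 ↔ a = 1 := fun a => by simpa using conj_eq_one_iff (a := g⁻¹) (b := a)
  obtain ⟨w, hw⟩ := h.sX
  refine ⟨fun e => h.ne (map_injective (MulAut.conj g).injective e), cj_mono g h.aX, cj_mono g h.bX, cj_mono g h.xY,
    (card_cj _ _).trans h.cA, (card_cj _ _).trans h.cB, fun a ha => (o _).1 (s a ▸ h.eA _ (mem_cj.1 ha)),
    fun a ha => (o _).1 (s a ▸ h.eB _ (mem_cj.1 ha)), (card_cj _ _).trans h.cX, ⟨g * w * g⁻¹, fun a ha =>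
      (hw _ (mem_cj.1 ha)).imp (fun e => (o _).1 (s a ▸ e)) fun e => by rw [← e, s]; group⟩,
    fun a ha => mem_cj.2 (s a ▸ h.sY _ (mem_cj.1 ha)), cj_normalizer g A ▸ cj_mono g h.nA,
    cj_normalizer g B ▸ cj_mono g h.nB, (card_cj _ _).trans h.cY, Eq.trans (Nat.card_congr
      ((MulAut.conj g⁻¹).toEquiv.subtypeEquiv fun a => ?_)) h.iY⟩
  simp only [MulEquiv.toEquiv_eq_coe, EquivLike.coe_coe, MulAut.conj_apply, inv_inv, s, o, mem_cj]

/-- the set on which the group acts -/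
@[ext] structure Om (G : Type*) [Group G] (nA nX nY nI : ℕ) where
  A : Subgroup G
  B : Subgroup G
  X : Subgroup G
  Y : Subgroup G
  ok : Pr nA nX nY nI A B X Y

instance : MulAction G (Om G nA nX nY nI) where
  smul g ω := ⟨_, _, _, _, ω.ok.cj g⟩
  one_smul _ := Om.ext (cj_one _) (cj_one _) (cj_one _) (cj_one _)
  mul_smul _ _ _ := Om.ext (cj_mul _ _ _) (cj_mul _ _ _) (cj_mul _ _ _) (cj_mul _ _ _)

instance [Finite G] : Finite (Om G nA nX nY nI) :=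
  Finite.of_injective (fun ω => (ω.A, ω.B, ω.X, ω.Y)) fun _ _ e => by
    simp only [Prod.mk.injEq] at e
    exact Om.ext e.1 e.2.1 e.2.2.1 e.2.2.2

/-- the swap -/
def Om.sw (ω : Om G nA nX nY nI) : Om G nA nX nY nI := ⟨_, _, _, _, ω.ok.symm⟩

theorem sgO : Sg G (Om.sw : Om G nA nX nY nI → _) :=
  ⟨fun _ => rfl, fun ω e => ω.ok.ne (congrArg Om.B e), fun _ _ => rfl⟩

end CF.M12S
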