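import Cfsg.Agent.M12S.P

/-! Coded 2-subgroups of a finite group. -/

set_option autoImplicit false
set_option linter.unusedSectionVars false

namespace CF.M12S

open Subgroup CF.Loc CF.HSo CF.Comp

scoped notation "𝐜(" x ")" => Subgroup.centralizer ({x} : Set _)

variable {G : Type*} [Group G]

theorem c1 {x y : G} : y ∈ 𝐜(x) ↔ y * x = x * y := mem_centralizer_singleton_iff

/-- `S` consists of the elements with a code in `M` -/
def Sb (φ : ℕ → G) (N : ℕ) (S : Subgroup G) (M : ℕ) : Prop :=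
  M < 2 ^ N ∧ ∀ x, x ∈ S ↔ ∃ a, M.testBit a = true ∧ φ a = x

def Cl (φ : ℕ → G) (l : List ℕ) : Subgroup G := closure (φ '' {a | a ∈ l})

theorem Cl.mem {φ : ℕ → G} {l : List ℕ} {a : ℕ} (h : a ∈ l) : φ a ∈ Cl φ l := subset_closure ⟨a, h, rfl⟩

theorem Cl.le {φ : ℕ → G} {l : List ℕ} {K : Subgroup G} (h : ∀ a ∈ l, φ a ∈ K) : Cl φ l ≤ K :=
  (closure_le _).2 (by rintro _ ⟨a, ha, rfl⟩; exact h a ha)

def Inj (φ : ℕ → G) (N : ℕ) : Prop := ∀ a < N, ∀ b < N, φ a = φ b → a = b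

noncomputable def cm (m : Op2) (a b : ℕ) : Bool := Nat.beq (m a b) (m b a)
noncomputable def tops (W : List Lv) : List ℕ := lmap Lv.top W

noncomputable def imgM (f : ℕ → ℕ) (d M : ℕ) : ℕ :=
  tre (nat_lit 0) (fun a => force (f a) (Nat.shiftLeft (nat_lit 1))) (fun _ x y => Nat.lor x y) d (nat_lit 0) M

theorem imgM_iff {f : ℕ → ℕ} {d M : ℕ} (h : M < 2 ^ 2 ^ d) :
    ∀ x, (imgM f d M).testBit x = true ↔ ∃ a, M.testBit a = true ∧ f a = x := by
  have := tre_ind (z := 0) (lf := fun a => force (f a) (Nat.shiftLeft 1)) (nd := fun _ x y => Nat.lor x y)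
    (fun _ a M r => ∀ x, r.testBit x = true ↔ ∃ i, M.testBit i = true ∧ f (a + i) = x) (by simp)
    (fun a x => by
      rw [force_eq, bit_one]
      exact ⟨fun e => ⟨0, rfl, e.symm⟩, fun ⟨i, i1, i2⟩ => by
        rw [← i2, Nat.testBit_one_eq_true_iff_self_eq_zero.1 i1]; rfl⟩)
    (fun s a lo hi x y l _ p q z => by
      rw [bit_lor, p, q]
      refine ⟨?_, fun ⟨i, i1, i2⟩ => ?_⟩
      · rintro (⟨i, i1, i2⟩ | ⟨i, i1, i2⟩)
        · exact ⟨i, by rwa [tbm l, if_pos (lt_of_bit l i1)], i2⟩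
        · exact ⟨s + i, by rwa [tbm l, if_neg (by omega), Nat.add_sub_cancel_left], by rwa [← add_assoc]⟩
      · rw [tbm l] at i1
        split_ifs at i1 with c
        exacts [.inl ⟨i, i1, i2⟩, .inr ⟨_, i1, by rwa [add_assoc, Nat.add_sub_cancel' (not_lt.1 c)]⟩]) d 0 M h
  simp only [zero_add] at this
  exact this

/-- products of the elements of a list -/
noncomputable def spn (m : Op2) (d : ℕ) (l : List ℕ) : ℕ :=
  List.rec (motive := fun _ => ℕ) (nat_lit 1) (fun x _ ih => force ih fun R => force x fun x =>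
    Nat.lor R (imgM (fun a => m a x) d R)) l

/-- the table of a function -/
noncomputable def pk (f : ℕ → ℕ) (d M : ℕ) : ℕ :=
  tre (nat_lit 0) f (fun s x y => Nat.add (Nat.shiftLeft y (Nat.mul s (nat_lit 12))) x) d (nat_lit 0) M

theorem lk_bit (T i j : ℕ) : (lk T i).testBit j = (T.testBit (i * 12 + j) && decide (j < 12)) := by
  show (T >>> (i * 12) &&& (2 ^ 12 - 1)).testBit j = _
  rw [Nat.testBit_and, Nat.testBit_shiftRight, Nat.testBit_two_pow_sub_one]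

theorem pk_spec {f : ℕ → ℕ} {d M : ℕ} (h : M < 2 ^ 2 ^ d) (b : ∀ i < 2 ^ d, f i < 4096) {i : ℕ}
    (k : M.testBit i = true) : lk (pk f d M) i = f i := by
  have := tre_ind (z := 0) (lf := f) (nd := fun s x y => Nat.add (Nat.shiftLeft y (Nat.mul s 12)) x)
    (fun s a M r => (∀ i < s, f (a + i) < 4096) → r < 2 ^ (s * 12) ∧ ∀ i, M.testBit i = true → lk r i = f (a + i))
    (by simp) (fun a b => ⟨b 0 one_pos, fun i hi => by
      obtain rfl : i = 0 := Nat.testBit_one_eq_true_iff_self_eq_zero.1 hi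
      exact (Nat.and_two_pow_sub_one_eq_mod _ 12).trans (Nat.mod_eq_of_lt (b 0 one_pos))⟩)
    (fun s a lo hi x y l _ p q b => by
      have e : Nat.add (Nat.shiftLeft y (Nat.mul s 12)) x = 2 ^ (s * 12) * y + x := by
        show y <<< (s * 12) + x = _
        rw [Nat.shiftLeft_eq, mul_comm]
      replace p := p fun i hi => b i (by omega)
      replace q := q fun i hi => add_assoc a s i ▸ b _ (by omega)
      rw [e]
      refine ⟨by rw [add_mul, pow_add]; nlinarith [p.1, q.1], fun i k => ?_⟩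
      rw [tbm l] at k
      split_ifs at k with c
      · rw [← p.2 i k]
        refine Nat.eq_of_testBit_eq fun j => ?_
        rw [lk_bit, lk_bit, tbm p.1]
        by_cases u : j < 12
        exacts [by rw [if_pos (by omega)], by simp [u]]
      · rw [← Nat.add_sub_cancel' (not_lt.1 c), ← add_assoc, ← q.2 _ k]
        refine Nat.eq_of_testBit_eq fun j => ?_
        rw [lk_bit, lk_bit, tbm p.1, if_neg (by omega)]
        congr 2
        omega) d 0 M h (by simpa using b)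
  exact (this.2 i k).trans (by rw [zero_add])

/-- a subgroup given by closure under products -/
def sbg [Finite G] (p : G → Prop) (h1 : p 1) (hm : ∀ x y, p x → p y → p (x * y)) : Subgroup G where
  carrier := {x | p x}
  one_mem' := h1
  mul_mem' := hm _ _
  inv_mem' := fun {x} hx => by
    have : ∀ n : ℕ, p (x ^ n) := fun n => n.rec (by simpa using h1) fun n ih => pow_succ x n ▸ hm _ _ ih hx
    have e : x⁻¹ = x ^ (orderOf x - 1) := inv_eq_of_mul_eq_one_right (by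
      rw [← pow_succ', Nat.sub_add_cancel (orderOf_pos x), pow_orderOf_eq_one])
    exact e ▸ this _

/-- a tower realised in a group -/
structure Tc (W : List Lv) (m : Op2) (xs : List G) : Prop where
  tw : Tw W
  rel : Rel W xs
  meq : Meq W m
  inj : Inj (ev W xs) (sz W)

noncomputable def sub (m : Op2) (N d M : ℕ) (gs : List ℕ) : Bool :=
  lall (fun g => an (blt g N) (allM (fun a => tb M (m a g)) d M)) gs

noncomputable def icM (m : Op2) (d M : ℕ) : ℕ := cntM d (filM (fun a => Nat.beq (m a a) (nat_lit 0)) d M)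

namespace Tc

variable {W : List Lv} {m : Op2} {xs : List G} (C : Tc W m xs)

local notation "φ" => ev W xs
local notation "N" => sz W
local notation "d" => llen W

include C

theorem hm : Hm N m φ :=
  have h := hm_of C.tw.1 C.tw.2 C.rel
  ⟨h.1, h.2.1, fun a ha b hb => C.meq a ha b hb ▸ h.2.2 a ha b hb⟩

theorem pos : 0 < N := C.hm.1
theorem z : φ 0 = 1 := C.hm.2.1
theorem lt {a b : ℕ} (ha : a < N) (hb : b < N) : m a b < N := (C.hm.2.2 a ha b hb).1
theorem mu {a b : ℕ} (ha : a < N) (hb : b < N) : φ (m a b) = φ a * φ b := (C.hm.2.2 a ha b hb).2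
theorem pw {M : ℕ} (h : M < 2 ^ N) : M < 2 ^ 2 ^ d := C.tw.1.sz_eq ▸ h

theorem eq {a b c e : ℕ} (ha : a < N) (hb : b < N) (hc : c < N) (hd : e < N) :
    m a b = m c e ↔ φ a * φ b = φ c * φ e := by
  rw [← C.mu ha hb, ← C.mu hc hd]
  exact ⟨congrArg _, C.inj _ (C.lt ha hb) _ (C.lt hc hd)⟩

theorem cm {a b : ℕ} (ha : a < N) (hb : b < N) : cm m a b = true ↔ φ a * φ b = φ b * φ a :=
  beq_iff.trans (C.eq ha hb hb ha)

theorem one {a : ℕ} (ha : a < N) : φ a = 1 ↔ a = 0 :=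
  ⟨fun e => C.inj _ ha _ C.pos (e.trans C.z.symm), fun e => e ▸ C.z⟩

theorem m0 {a b : ℕ} (ha : a < N) (hb : b < N) : Nat.beq (m a b) (nat_lit 0) = true ↔ φ a * φ b = 1 := by
  rw [beq_iff, ← C.mu ha hb, C.one (C.lt ha hb)]

theorem top_lt {a : ℕ} (h : a ∈ tops W) : a < N := by
  rw [tops, lmap_eq] at h
  obtain ⟨L, hL, rfl⟩ := List.mem_map.1 h
  have := C.tw.1.top_le hL
  omega

theorem ind {K : Subgroup G} (h : ∀ a ∈ tops W, φ a ∈ K) : ∀ a < N, φ a ∈ K :=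
  C.tw.1.ind (P := fun a => φ a ∈ K) (C.z ▸ one_mem K) fun L hL b hb q => by
    rw [ev_add C.tw.1 hL hb]
    exact mul_mem q (h _ (by rw [tops, lmap_eq]; exact List.mem_map_of_mem hL))

theorem allN {f : ℕ → Bool} (h : allBin f N d (nat_lit 0) = true) : ∀ a < N, f a = true :=
  allBin_spec h C.tw.1.sz_eq.le

theorem all {f : ℕ → Bool} {M : ℕ} (l : M < 2 ^ N) (h : allM f d M = true) {a : ℕ} (k : M.testBit a = true) :
    f a = true := allM_spec (C.pw l) h a k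

theorem fil {f : ℕ → Bool} {M : ℕ} (l : M < 2 ^ N) : filM f d M < 2 ^ N ∧
    ∀ i, (filM f d M).testBit i = true ↔ M.testBit i = true ∧ f i = true := C.tw.1.sz_eq ▸ filM_spec (C.pw l)

omit C in
theorem _root_.CF.M12S.Sb.mem {ψ : ℕ → G} {n : ℕ} {S : Subgroup G} {M a : ℕ} (h : Sb ψ n S M)
    (k : M.testBit a = true) : ψ a ∈ S := (h.2 _).2 ⟨a, k, rfl⟩

theorem bit {S : Subgroup G} {M a : ℕ} (h : Sb φ N S M) (ha : a < N) : M.testBit a = true ↔ φ a ∈ S :=
  ⟨h.mem, fun k => by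
    obtain ⟨b, hb, e⟩ := (h.2 _).1 k
    exact C.inj _ (lt_of_bit h.1 hb) _ ha e ▸ hb⟩

theorem uq {S : Subgroup G} {M M' : ℕ} (h : Sb φ N S M) (k : Sb φ N S M') : M = M' :=
  Nat.eq_of_testBit_eq fun _ => Bool.eq_iff_iff.2 ⟨fun q => (C.bit k (lt_of_bit h.1 q)).2 (h.mem q),
    fun q => (C.bit h (lt_of_bit k.1 q)).2 (k.mem q)⟩

theorem cnt {M : ℕ} {p : G → Prop} (l : M < 2 ^ N) (h : ∀ x, p x ↔ ∃ a, M.testBit a = true ∧ φ a = x) :
    Nat.card {x // p x} = cntM d M := by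
  rw [cntM_spec (C.pw l), ← C.tw.1.sz_eq, ← Nat.card_eq_finsetCard]
  refine (Nat.card_congr (Equiv.ofBijective (fun a : HSo.bits N M => (⟨φ a, (h _).2 ⟨a, (HSo.mem_bits.1 a.2).2, rfl⟩⟩ : {x // p x}))
    ⟨fun a b e => Subtype.ext (C.inj _ (HSo.mem_bits.1 a.2).1 _ (HSo.mem_bits.1 b.2).1 (congrArg Subtype.val e)), fun x => ?_⟩)).symm
  obtain ⟨a, ha, e⟩ := (h _).1 x.2
  exact ⟨⟨a, HSo.mem_bits.2 ⟨lt_of_bit l ha, ha⟩⟩, Subtype.ext e⟩

theorem card {S : Subgroup G} {M : ℕ} (h : Sb φ N S M) : Nat.card S = cntM d M := C.cnt h.1 h.2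

theorem ic {S : Subgroup G} {M : ℕ} (h : Sb φ N S M) : ic S = icM m d M := C.cnt (C.fil h.1).1 fun x =>
  ⟨fun k => by
    obtain ⟨a, ha, rfl⟩ := (h.2 x).1 k.1
    have l := lt_of_bit h.1 ha
    exact ⟨a, ((C.fil h.1).2 a).2 ⟨ha, (C.m0 l l).2 k.2⟩, rfl⟩, by
    rintro ⟨a, ha, rfl⟩
    obtain ⟨k1, k2⟩ := ((C.fil h.1).2 a).1 ha
    have l := lt_of_bit h.1 k1
    exact ⟨h.mem k1, (C.m0 l l).1 k2⟩⟩

theorem spn {l : List ℕ} (h : ∀ a ∈ l, a < N) : (spn m d l).testBit 0 = true ∧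
    ∀ x, (spn m d l).testBit x = true → x < N ∧ φ x ∈ Cl φ l := by
  induction l with
  | nil => exact ⟨show (1 : ℕ).testBit 0 = true by decide, fun x q => Nat.testBit_one_eq_true_iff_self_eq_zero.1 q ▸ ⟨C.pos, C.z ▸ one_mem _⟩⟩
  | cons a l ih =>
    have ih := ih fun b hb => h b (List.mem_cons_of_mem _ hb)
    have a1 := h a List.mem_cons_self
    have e : M12S.spn m d (a :: l) = Nat.lor (M12S.spn m d l) (imgM (fun b => m b a) d (M12S.spn m d l)) := by
      show force (M12S.spn m d l) (fun R => force a fun x => Nat.lor R (imgM (fun b => m b x) d R)) = _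
      rw [force_eq, force_eq]
    have k : Cl φ l ≤ Cl φ (a :: l) := Cl.le fun b hb => Cl.mem (List.mem_cons_of_mem _ hb)
    rw [e]
    refine ⟨bit_lor.2 (.inl ih.1), fun x q => (bit_lor.1 q).elim (fun q => (ih.2 x q).imp_right (@k _)) fun q => ?_⟩
    obtain ⟨b, b1, rfl⟩ := (imgM_iff (C.pw (lt_of_bits fun x q => (ih.2 x q).1)) x).1 q
    exact ⟨C.lt (ih.2 b b1).1 a1, C.mu (ih.2 b b1).1 a1 ▸ mul_mem (k (ih.2 b b1).2) (Cl.mem List.mem_cons_self)⟩

variable [Finite G]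

theorem sub {gs : List ℕ} (h : sub m N d (M12S.spn m d gs) gs = true) :
    Sb φ N (Cl φ gs) (M12S.spn m d gs) ∧ ∀ g ∈ gs, g < N := by
  simp only [M12S.sub, lall_iff, an_iff, blt_iff] at h
  obtain ⟨s0, s1⟩ := C.spn fun a ha => (h a ha).1
  have l := lt_of_bits fun x q => (s1 x q).1
  refine ⟨⟨l, fun x => ⟨fun hx => ?_, by rintro ⟨a, ha, rfl⟩; exact (s1 a ha).2⟩⟩, fun a ha => (h a ha).1⟩
  generalize M12S.spn m d gs = M at *
  have := Cl.le (K := sbg (fun x => ∀ a, M.testBit a = true → ∃ b, M.testBit b = true ∧ φ b = φ a * x)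
    (fun a ha => ⟨a, ha, (mul_one _).symm⟩) fun x y p q a ha => by
      obtain ⟨b, hb, e⟩ := p a ha
      rw [← mul_assoc, ← e]
      exact q b hb) (fun g hg a ha => ⟨_, tb_iff.1 (C.all l (h g hg).2 ha), C.mu (s1 a ha).1 (h g hg).1⟩) hx 0 s0
  rwa [C.z, one_mul] at this

/-- the coded group -/
def P : Subgroup G := sbg (fun x => ∃ a, a < N ∧ φ a = x) ⟨0, C.pos, C.z⟩ (by
  rintro _ _ ⟨a, ha, rfl⟩ ⟨b, hb, rfl⟩; exact ⟨_, C.lt ha hb, C.mu ha hb⟩)

theorem mem {a : ℕ} (h : a < N) : φ a ∈ C.P := ⟨a, h, rfl⟩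

theorem le {K : Subgroup G} (h : ∀ a < N, φ a ∈ K) : C.P ≤ K := by rintro _ ⟨a, ha, rfl⟩; exact h a ha

theorem sbP {S : Subgroup G} {M : ℕ} (h : Sb φ N S M) : S ≤ C.P := fun x hx =>
  ((h.2 x).1 hx).imp fun _ q => ⟨lt_of_bit h.1 q.1, q.2⟩

theorem cardP : Nat.card C.P = N := by
  rw [C.card (M := full N) ⟨full_lt N, fun x => by simp only [bit_full]; rfl⟩, cntM_spec (C.pw (full_lt N)),
    ← C.tw.1.sz_eq, HSo.bits, Finset.filter_true_of_mem fun i hi => bit_full.2 (Finset.mem_range.1 hi), Finset.card_range]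

theorem pg : IsPGroup 2 C.P := IsPGroup.of_card (C.cardP.trans C.tw.1.sz_eq)

end Tc

end CF.M12S
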